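import Mathlib
import Cfsg.Agent.PReduced.Hom
import Cfsg.Agent.CoprimeAction.Frattini

/-!
Small terms of the upper central series of a 2-group: normal subgroups sit between consecutive terms when the
terms grow by index two.
-/

set_option autoImplicit false

namespace CfsgLib.RuType

open Subgroup
open scoped commutatorElement

variable {T : Type*} [Group T] [Finite T]

/-- The `k`-th upper central term. -/
abbrev Zc (T : Type*) [Group T] (k : ℕ) : Subgroup T := Subgroup.upperCentralSeries T k

theorem Zc_lt_succ (hT : IsPGroup 2 T) {k : ℕ} (h : Zc T k ≠ ⊤) : Zc T k < Zc T (k + 1) := by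
  haveI : Fact (Nat.Prime 2) := ⟨Nat.prime_two⟩
  have hnil : Group.IsNilpotent T := hT.isNilpotent
  refine lt_of_le_of_ne (Subgroup.upperCentralSeries_mono T (Nat.le_succ k)) fun heq => ?_
  obtain ⟨n, hn⟩ := Group.IsNilpotent.nilpotent T
  have hst : ∀ j, Zc T (k + j) = Zc T k := by
    intro j
    induction j with
    | zero => rfl
    | succ j ih =>
      ext x
      rw [show k + (j + 1) = (k + j) + 1 from rfl, Subgroup.mem_upperCentralSeries_succ_iff]
      constructor
      · intro hx
        rw [heq, Subgroup.mem_upperCentralSeries_succ_iff]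
        intro y
        have := hx y
        change ⁅x, y⁆ ∈ Zc T (k + j) at this
        rwa [ih] at this
      · intro hx y
        rw [heq, Subgroup.mem_upperCentralSeries_succ_iff] at hx
        change ⁅x, y⁆ ∈ Zc T (k + j)
        rw [ih]
        exact hx y
  apply h
  rcases le_total n k with hle | hle
  · exact eq_top_iff.2 (hn ▸ Subgroup.upperCentralSeries_mono T hle)
  · obtain ⟨j, rfl⟩ := Nat.exists_eq_add_of_le hle
    exact (hst j).symm.trans hn

theorem two_mul_card_le_of_lt {A B : Subgroup T} (h : A < B) : 2 * Nat.card A ≤ Nat.card B := by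
  obtain ⟨m, hm⟩ := Subgroup.card_dvd_of_le h.le
  have hpos : 0 < Nat.card A := Nat.card_pos
  have hne : Nat.card A ≠ Nat.card B := fun he => h.ne (Subgroup.eq_of_le_of_card_ge h.le he.ge)
  rcases m with _ | _ | m
  · rw [mul_zero] at hm
    exact absurd hm (Nat.card_pos (α := B)).ne'
  · exact absurd (by omega) hne
  · rw [hm, mul_comm 2]
    exact Nat.mul_le_mul le_rfl (by omega)

/-- If the fourth term has order sixteen and the group is larger, the first terms grow by index two. -/
theorem card_Zc (hT : IsPGroup 2 T) (hb : Nat.card (Zc T 4) = 16) (ha : 16 < Nat.card T) {k : ℕ} (hk : k ≤ 4) :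
    Nat.card (Zc T k) = 2 ^ k := by
  have hne : ∀ j ≤ 4, Zc T j ≠ ⊤ := fun j hj h => by
    have h4 : Zc T 4 = ⊤ := eq_top_iff.2 (h ▸ Subgroup.upperCentralSeries_mono T hj)
    rw [h4, Subgroup.card_top] at hb
    omega
  have h0 : Nat.card (Zc T 0) = 1 := by
    rw [show Zc T 0 = ⊥ from Subgroup.upperCentralSeries_zero T, Subgroup.card_bot]
  have h1 : 2 * 1 ≤ Nat.card (Zc T 1) := by
    have h := two_mul_card_le_of_lt (Zc_lt_succ hT (hne 0 (by omega)))
    rwa [h0] at h
  have h2 : 2 * Nat.card (Zc T 1) ≤ Nat.card (Zc T 2) := two_mul_card_le_of_lt (Zc_lt_succ hT (hne 1 (by omega)))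
  have h3 : 2 * Nat.card (Zc T 2) ≤ Nat.card (Zc T 3) := two_mul_card_le_of_lt (Zc_lt_succ hT (hne 2 (by omega)))
  have h4 : 2 * Nat.card (Zc T 3) ≤ Nat.card (Zc T 4) := two_mul_card_le_of_lt (Zc_lt_succ hT (hne 3 (by omega)))
  interval_cases k <;> simp only [Nat.reducePow] <;> omega

theorem normal_le_or_ge (hT : IsPGroup 2 T) (hb : Nat.card (Zc T 4) = 16) (ha : 16 < Nat.card T)
    (N : Subgroup T) [hN : N.Normal] {k : ℕ} (hk : k < 4) : N ≤ Zc T k ∨ Zc T (k + 1) ≤ N := by
  haveI : Fact (Nat.Prime 2) := ⟨Nat.prime_two⟩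
  have step : ∀ j, N ⊓ Zc T (j + 1) ≤ Zc T j → N ≤ Zc T j := by
    intro j hj
    haveI : (Zc T j).Normal := inferInstance
    haveI : (N.map (QuotientGroup.mk' (Zc T j))).Normal :=
      hN.map _ (QuotientGroup.mk'_surjective _)
    by_contra hle
    have hne : N.map (QuotientGroup.mk' (Zc T j)) ≠ ⊥ := fun h => hle fun x hx => by
      have hm : QuotientGroup.mk' (Zc T j) x ∈ N.map (QuotientGroup.mk' (Zc T j)) := mem_map_of_mem _ hx
      rw [h, mem_bot] at hm
      exact (QuotientGroup.eq_one_iff x).1 hm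
    obtain ⟨y, hy, hy1⟩ := (Subgroup.bot_or_exists_ne_one _).resolve_left
      (CfsgLib.PReduced.inf_center_ne_bot (hT.to_quotient (Zc T j)) hne)
    obtain ⟨hyN, hyZ⟩ := mem_inf.1 hy
    obtain ⟨x, hx, rfl⟩ := hyN
    apply hy1
    refine (QuotientGroup.eq_one_iff x).2 (hj ⟨hx, ?_⟩)
    change x ∈ Zc T (j + 1)
    rw [Subgroup.mem_upperCentralSeries_succ_iff]
    intro g
    rw [← QuotientGroup.eq_one_iff, commutatorElement_def]
    have hc := mem_center_iff.1 hyZ (QuotientGroup.mk' (Zc T j) g)
    simp only [QuotientGroup.mk'_apply] at hc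
    simp only [QuotientGroup.mk_mul, QuotientGroup.mk_inv, ← hc]
    group
  have hgrow : ∀ j ≤ k + 1, N ≤ Zc T k ∨ 2 ^ j ≤ Nat.card (N ⊓ Zc T j : Subgroup T) := by
    intro j
    induction j with
    | zero => exact fun _ => Or.inr Nat.card_pos
    | succ j ih =>
      intro hj
      refine (ih (by omega)).elim Or.inl fun hcard => ?_
      by_cases hle : N ⊓ Zc T (j + 1) ≤ Zc T j
      · exact Or.inl ((step j hle).trans (Subgroup.upperCentralSeries_mono T (by omega)))
      · refine Or.inr ?_
        have hlt : N ⊓ Zc T j < N ⊓ Zc T (j + 1) :=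
          lt_of_le_of_ne (inf_le_inf_left _ (Subgroup.upperCentralSeries_mono T (Nat.le_succ j))) fun h =>
            hle (h ▸ inf_le_right)
        have := two_mul_card_le_of_lt hlt
        rw [pow_succ]
        omega
  refine (hgrow (k + 1) le_rfl).imp id fun h => ?_
  rw [← card_Zc hT hb ha (show k + 1 ≤ 4 by omega)] at h
  exact inf_eq_right.1 (Subgroup.eq_of_le_of_card_ge inf_le_right h)

end CfsgLib.RuType
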