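import Mathlib
import Cfsg.Agent.RuType.Series

/-!
The action of a 2-group on the third term of its upper central series of order eight: the stabiliser of the chain
is dihedral of order eight, and the quotient by the kernel embeds into it.
-/

set_option autoImplicit false

namespace CfsgLib.RuType

open Subgroup
open scoped commutatorElement

/-- The hypotheses on a Sylow 2-subgroup of Rudvalis type. -/
structure Hyp {T : Type*} [Group T] (W : Subgroup T) : Prop where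
  isP : IsPGroup 2 T
  big : 2 ^ 14 ≤ Nat.card T
  z4 : Nat.card (Zc T 4) = 16
  cent : W = Subgroup.centralizer (Zc T 3 : Set T)
  fr : Nat.card (frattini W) ≤ 8
  sub : ∀ U : Subgroup W, U.index ≤ 16 → frattini W ≤ U

variable {T : Type*} [Group T] [Finite T] {W : Subgroup T}

/-- Membership in a subgroup of index two of a subgroup. -/
theorem mul_mem_iff_of_double {A B : Subgroup T} (hle : A ≤ B) (hc : Nat.card B = 2 * Nat.card A)
    {x y : T} (hx : x ∈ B) (hy : y ∈ B) : x * y ∈ A ↔ (x ∈ A ↔ y ∈ A) := by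
  have hi : (A.subgroupOf B).index = 2 := by
    have h := (A.subgroupOf B).card_mul_index
    rw [Nat.card_congr (Subgroup.subgroupOfEquivOfLe hle).toEquiv, hc] at h
    have hpos : 0 < Nat.card A := Nat.card_pos
    exact Nat.eq_of_mul_eq_mul_left hpos (by omega)
  have := Subgroup.mul_mem_iff_of_index_two hi (a := ⟨x, hx⟩) (b := ⟨y, hy⟩)
  simpa [mem_subgroupOf] using this

theorem comm_mem_succ {k : ℕ} {x : T} (hx : x ∈ Zc T (k + 1)) (t : T) : ⁅t, x⁆ ∈ Zc T k := by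
  rw [← commutatorElement_inv]
  exact inv_mem (Subgroup.mem_upperCentralSeries_succ_iff.1 hx t)

theorem comm_mul_left (t u x : T) : ⁅t * u, x⁆ = t * ⁅u, x⁆ * t⁻¹ * ⁅t, x⁆ := by
  simp only [commutatorElement_def]
  group

theorem fix_iff {t x : T} : ⁅t, x⁆ = 1 ↔ t * x * t⁻¹ = x := by
  rw [commutatorElement_def, mul_inv_eq_one]

namespace Hyp

variable (h : Hyp W)

include h

theorem big16 : 16 < Nat.card T := lt_of_lt_of_le (by norm_num) h.big

theorem cardZ {k : ℕ} (hk : k ≤ 4) : Nat.card (Zc T k) = 2 ^ k := card_Zc h.isP h.z4 h.big16 hk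

theorem double {k : ℕ} (hk : k < 4) {x y : T} (hx : x ∈ Zc T (k + 1)) (hy : y ∈ Zc T (k + 1)) :
    x * y ∈ Zc T k ↔ (x ∈ Zc T k ↔ y ∈ Zc T k) :=
  mul_mem_iff_of_double (Subgroup.upperCentralSeries_mono T (Nat.le_succ k))
    (by rw [h.cardZ (by omega), h.cardZ (by omega), pow_succ']) hx hy

theorem exists_step {k : ℕ} (hk : k < 4) : ∃ x ∈ Zc T (k + 1), x ∉ Zc T k := by
  by_contra hc
  push Not at hc
  have hc' : Zc T (k + 1) ≤ Zc T k := hc
  have := Subgroup.card_le_of_le hc'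
  rw [h.cardZ (by omega), h.cardZ (by omega), pow_succ] at this
  have : 0 < 2 ^ k := Nat.two_pow_pos k
  omega

theorem sq_mem {k : ℕ} (hk : k < 4) {x : T} (hx : x ∈ Zc T (k + 1)) : x * x ∈ Zc T k :=
  (h.double hk hx hx).2 Iff.rfl

theorem step_rep {k : ℕ} (hk : k < 4) {e x : T} (he : e ∈ Zc T (k + 1)) (he' : e ∉ Zc T k)
    (hx : x ∈ Zc T (k + 1)) (hx' : x ∉ Zc T k) : e⁻¹ * x ∈ Zc T k := by
  rw [h.double hk (inv_mem he) hx]
  simp [he', hx']

theorem one_unique {x y : T} (hx : x ∈ Zc T 1) (hx1 : x ≠ 1) (hy : y ∈ Zc T 1) (hy1 : y ≠ 1) : x = y := by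
  have hx0 : x ∉ Zc T 0 := by rwa [show Zc T 0 = ⊥ from Subgroup.upperCentralSeries_zero T, mem_bot]
  have hy0 : y ∉ Zc T 0 := by rwa [show Zc T 0 = ⊥ from Subgroup.upperCentralSeries_zero T, mem_bot]
  have := h.step_rep (k := 0) (by omega) hx hx0 hy hy0
  rw [show Zc T 0 = ⊥ from Subgroup.upperCentralSeries_zero T, mem_bot, inv_mul_eq_one] at this
  exact this

omit h in
theorem zero_mem {x : T} : x ∈ Zc T 0 ↔ x = 1 := by
  rw [show Zc T 0 = ⊥ from Subgroup.upperCentralSeries_zero T, mem_bot]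

omit h in
theorem central {x : T} (hx : x ∈ Zc T 1) (t : T) : t * x * t⁻¹ = x :=
  fix_iff.1 (zero_mem.1 (comm_mem_succ hx t))

omit [Finite T] in
theorem wnormal : W.Normal := by
  rw [h.cent]
  exact inferInstance

/-- An element fixing the two upper generators lies in `W`. -/
theorem mem_W {t e₂ e₃ : T} (h₂ : e₂ ∈ Zc T 2) (h₂' : e₂ ∉ Zc T 1) (h₃ : e₃ ∈ Zc T 3) (h₃' : e₃ ∉ Zc T 2)
    (f₂ : ⁅t, e₂⁆ = 1) (f₃ : ⁅t, e₃⁆ = 1) : t ∈ W := by
  rw [h.cent, mem_centralizer_iff]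
  intro x hx
  have key : t * x * t⁻¹ = x := by
    have g2 := fix_iff.1 f₂
    have g3 := fix_iff.1 f₃
    have two : ∀ y ∈ Zc T 2, t * y * t⁻¹ = y := by
      intro y hy
      by_cases hy' : y ∈ Zc T 1
      · exact central hy' t
      · have hq := central (h.step_rep (k := 1) (by omega) h₂ h₂' hy hy') t
        calc t * y * t⁻¹ = (t * e₂ * t⁻¹) * (t * (e₂⁻¹ * y) * t⁻¹) := by group
          _ = y := by rw [g2, hq, mul_inv_cancel_left]
    by_cases hx' : x ∈ Zc T 2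
    · exact two x hx'
    · have hq := two _ (h.step_rep (k := 2) (by omega) h₃ h₃' hx hx')
      calc t * x * t⁻¹ = (t * e₃ * t⁻¹) * (t * (e₃⁻¹ * x) * t⁻¹) := by group
        _ = x := by rw [g3, hq, mul_inv_cancel_left]
  exact (mul_inv_eq_iff_eq_mul.1 key).symm

theorem fix_of_mem {t x : T} (ht : t ∈ W) (hx : x ∈ Zc T 3) : ⁅t, x⁆ = 1 := by
  rw [h.cent, mem_centralizer_iff] at ht
  rw [fix_iff, ← ht x hx, mul_inv_cancel_right]

/-- The pair of commutators of `t` with two fixed generators. -/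
theorem pair_injective {e₂ e₃ : T} (h₂ : e₂ ∈ Zc T 2) (h₂' : e₂ ∉ Zc T 1) (h₃ : e₃ ∈ Zc T 3)
    (h₃' : e₃ ∉ Zc T 2) {t u : T} (f₂ : ⁅t, e₂⁆ = ⁅u, e₂⁆) (f₃ : ⁅t, e₃⁆ = ⁅u, e₃⁆) : t⁻¹ * u ∈ W := by
  have e : ∀ {x : T}, ⁅t, x⁆ = ⁅u, x⁆ → ⁅t⁻¹ * u, x⁆ = 1 := by
    intro x hx
    rw [comm_mul_left, ← hx]
    simp only [commutatorElement_def]
    group
  exact h.mem_W h₂ h₂' h₃ h₃' (e f₂) (e f₃)

theorem index_le : W.index ≤ 8 := by
  haveI := h.wnormal
  obtain ⟨e₂, h₂, h₂'⟩ := h.exists_step (k := 1) (by omega)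
  obtain ⟨e₃, h₃, h₃'⟩ := h.exists_step (k := 2) (by omega)
  have hinj : Function.Injective fun q : T ⧸ W =>
      ((⟨⁅q.out, e₂⁆, comm_mem_succ h₂ _⟩ : Zc T 1), (⟨⁅q.out, e₃⁆, comm_mem_succ h₃ _⟩ : Zc T 2)) := by
    intro q q' hq
    simp only [Prod.mk.injEq, Subtype.mk.injEq] at hq
    have := QuotientGroup.eq.2 (h.pair_injective h₂ h₂' h₃ h₃' hq.1 hq.2)
    rwa [QuotientGroup.out_eq', QuotientGroup.out_eq'] at this
  have := Nat.card_le_card_of_injective _ hinj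
  rw [Nat.card_prod, h.cardZ (by omega), h.cardZ (by omega)] at this
  rw [Subgroup.index_eq_card]
  exact this

/-- Once `W` has index eight, every pair of commutators occurs. -/
theorem exists_pair (h8 : W.index = 8) {e₂ e₃ : T} (h₂ : e₂ ∈ Zc T 2) (h₂' : e₂ ∉ Zc T 1)
    (h₃ : e₃ ∈ Zc T 3) (h₃' : e₃ ∉ Zc T 2) {p q : T} (hp : p ∈ Zc T 1) (hq : q ∈ Zc T 2) :
    ∃ t : T, ⁅t, e₂⁆ = p ∧ ⁅t, e₃⁆ = q := by
  haveI := h.wnormal
  have hinj : Function.Injective fun q : T ⧸ W =>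
      ((⟨⁅q.out, e₂⁆, comm_mem_succ h₂ _⟩ : Zc T 1), (⟨⁅q.out, e₃⁆, comm_mem_succ h₃ _⟩ : Zc T 2)) := by
    intro q q' hq
    simp only [Prod.mk.injEq, Subtype.mk.injEq] at hq
    have := QuotientGroup.eq.2 (h.pair_injective h₂ h₂' h₃ h₃' hq.1 hq.2)
    rwa [QuotientGroup.out_eq', QuotientGroup.out_eq'] at this
  have hb := hinj.bijective_of_nat_card_le (by
    rw [Nat.card_prod, h.cardZ (by omega), h.cardZ (by omega), ← Subgroup.index_eq_card, h8]; norm_num)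
  obtain ⟨g, hg⟩ := hb.2 (⟨p, hp⟩, ⟨q, hq⟩)
  simp only [Prod.mk.injEq, Subtype.mk.injEq] at hg
  exact ⟨g.out, hg.1, hg.2⟩

end Hyp

end CfsgLib.RuType
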