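import Mathlib

/-!
Large elementary abelian subgroups avoiding the derived involution in groups with derived subgroup of order two.
-/

set_option autoImplicit false

namespace CfsgLib.RuType

open Subgroup
open scoped commutatorElement

variable {X : Type*} [Group X] [Finite X]

/-- Adding an involution `a` commuting with the elementary subgroup `A`, outside `A⟨ζ⟩`. -/
theorem elem_insert {ζ : X} (hζ : ζ * ζ = 1) {A : Subgroup X} (hA : ∀ x ∈ A, x * x = 1) (hζA : ζ ∉ A)
    (hζc : ∀ x ∈ A, ζ * x = x * ζ) {a : X} (ha2 : a * a = 1) (hac : ∀ x ∈ A, a * x = x * a)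
    (haA : a ∉ A) (haζ : ζ * a ∉ A) :
    ∃ A' : Subgroup X, A ≤ A' ∧ a ∈ A' ∧ (∀ x ∈ A', x * x = 1) ∧ ζ ∉ A' ∧ Nat.card A' = 2 * Nat.card A ∧
      (∀ x ∈ A', ∃ y ∈ A, x = y ∨ x = y * a) := by
  let A' : Subgroup X :=
    { carrier := {x | ∃ y ∈ A, x = y ∨ x = y * a}
      one_mem' := ⟨1, one_mem A, Or.inl rfl⟩
      mul_mem' := by
        rintro x x' ⟨y, hy, hx⟩ ⟨y', hy', hx'⟩
        refine ⟨y * y', mul_mem hy hy', ?_⟩
        rcases hx with rfl | rfl <;> rcases hx' with rfl | rfl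
        · exact Or.inl rfl
        · exact Or.inr (mul_assoc _ _ _).symm
        · exact Or.inr (by rw [mul_assoc, hac _ hy', ← mul_assoc])
        · exact Or.inl (by rw [mul_assoc y, ← mul_assoc a, hac _ hy', mul_assoc, ha2, mul_one])
      inv_mem' := by
        rintro x ⟨y, hy, rfl | rfl⟩
        · exact ⟨_, inv_mem hy, Or.inl rfl⟩
        · refine ⟨y⁻¹, inv_mem hy, Or.inr ?_⟩
          rw [mul_inv_rev, inv_eq_of_mul_eq_one_right ha2]
          exact hac _ (inv_mem hy) }
  have hle : A ≤ A' := fun y hy => ⟨y, hy, Or.inl rfl⟩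
  have haA' : a ∈ A' := ⟨1, one_mem A, Or.inr (one_mul a).symm⟩
  refine ⟨A', hle, haA', ?_, ?_, ?_, fun x hx => hx⟩
  · rintro x ⟨y, hy, rfl | rfl⟩
    · exact hA _ hy
    · rw [mul_assoc, ← mul_assoc a, hac _ hy, mul_assoc, ha2, mul_one, hA _ hy]
  · rintro ⟨y, hy, h | h⟩
    · exact hζA (h ▸ hy)
    · exact haζ (by rw [h, mul_assoc, ha2, mul_one]; exact hy)
  · have hi : (A.subgroupOf A').index = 2 := by
      refine Subgroup.index_eq_two_iff.2 ⟨⟨a, haA'⟩, ?_⟩
      rintro ⟨x, y, hy, rfl | rfl⟩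
      · refine Or.inr ⟨hy, fun hc => haA ?_⟩
        change x * a ∈ A at hc
        exact (A.mul_mem_cancel_left hy).1 hc
      · refine Or.inl ⟨?_, fun hc => haA ?_⟩
        · change y * a * a ∈ A
          rw [mul_assoc, ha2, mul_one]
          exact hy
        · change y * a ∈ A at hc
          exact (A.mul_mem_cancel_left hy).1 hc
    have := (A.subgroupOf A').card_mul_index
    rw [Nat.card_congr (Subgroup.subgroupOfEquivOfLe hle).toEquiv, hi] at this
    omega

/-- One extension step: if the centraliser of `A` is at least sixteen times `A`, a further involution is found. -/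
theorem exists_extend {ζ : X} (hζ : ζ * ζ = 1) (hζc : ∀ x : X, ζ * x = x * ζ)
    (hcomm : ∀ x y : X, ⁅x, y⁆ = 1 ∨ ⁅x, y⁆ = ζ) (hsq : ∀ x : X, x * x = 1 ∨ x * x = ζ)
    {A : Subgroup X} (hA : ∀ x ∈ A, x * x = 1) (hζA : ζ ∉ A)
    (hcard : 16 * Nat.card A ≤ Nat.card (Subgroup.centralizer (A : Set X))) :
    ∃ A' : Subgroup X, (∀ x ∈ A', x * x = 1) ∧ ζ ∉ A' ∧ Nat.card A' = 2 * Nat.card A ∧
      Nat.card (Subgroup.centralizer (A : Set X)) ≤ 2 * Nat.card (Subgroup.centralizer (A' : Set X)) := by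
  classical
  haveI : Fintype X := Fintype.ofFinite X
  set C := Subgroup.centralizer (A : Set X) with hC
  -- pick three elements of the centraliser independent modulo `A⟨ζ⟩`
  have hAC : ∀ x ∈ A, x ∈ C := by
    intro x hx
    rw [hC, mem_centralizer_iff]
    intro y hy
    have h1 := hA _ (mul_mem hy hx)
    have h2 := inv_eq_of_mul_eq_one_right (hA _ hx)
    have h3 := inv_eq_of_mul_eq_one_right (hA _ hy)
    have h4 := inv_eq_of_mul_eq_one_right h1
    rw [mul_inv_rev, h2, h3] at h4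
    exact h4.symm
  set S0 : Finset X := Finset.univ.filter fun x => x ∈ A ∨ ζ * x ∈ A with hS0
  set Cs : Finset X := Finset.univ.filter fun x => x ∈ C with hCs
  have hCsC : Cs.card = Nat.card C := by
    rw [Nat.card_eq_fintype_card, Fintype.card_of_subtype Cs]
    simp [hCs]
  have hS0le : S0.card ≤ 2 * Nat.card A := by
    set As : Finset X := Finset.univ.filter fun x => x ∈ A with hAs
    have hAsA : As.card = Nat.card A := by
      rw [Nat.card_eq_fintype_card, Fintype.card_of_subtype As]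
      simp [hAs]
    have hsub : S0 ⊆ As ∪ As.image (fun x => ζ * x) := by
      intro x hx
      rcases (Finset.mem_filter.1 hx).2 with h | h
      · exact Finset.mem_union_left _ (by simp [hAs, h])
      · refine Finset.mem_union_right _ (Finset.mem_image.2 ⟨ζ * x, by simp [hAs, h], ?_⟩)
        rw [← mul_assoc, hζ, one_mul]
    have := Finset.card_le_card hsub
    have := Finset.card_union_le As (As.image (fun x => ζ * x))
    have : (As.image (fun x => ζ * x)).card ≤ As.card := Finset.card_image_le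
    omega
  have pick : ∀ S : Finset X, S.card < 16 * Nat.card A → ∃ x ∈ C, x ∉ S := by
    intro S hS
    obtain ⟨x, hx, hx'⟩ := Finset.exists_mem_notMem_of_card_lt_card (lt_of_lt_of_le hS (hCsC.symm ▸ hcard))
    exact ⟨x, (Finset.mem_filter.1 hx).2, hx'⟩
  have hApos : 0 < Nat.card A := Nat.card_pos
  set S1 := fun (S : Finset X) (x : X) => S ∪ S.image (fun y => y * x) with hS1
  have hS1le : ∀ (S : Finset X) (x : X), (S1 S x).card ≤ 2 * S.card := by
    intro S x
    have h1 := Finset.card_union_le S (S.image (fun y => y * x))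
    have h2 : (S.image (fun y => y * x)).card ≤ S.card := Finset.card_image_le
    simp only [hS1]
    omega
  obtain ⟨u, huC, hu⟩ := pick S0 (by omega)
  obtain ⟨v, hvC, hv⟩ := pick (S1 S0 u) (by have := hS1le S0 u; omega)
  obtain ⟨w, hwC, hw⟩ := pick (S1 (S1 S0 u) v) (by
    have := hS1le S0 u
    have := hS1le (S1 S0 u) v
    omega)
  -- one of the seven products is an involution
  have hout : ∀ x : X, x ∉ S0 → x ∉ A ∧ ζ * x ∉ A := fun x hx =>
    ⟨fun h => hx (by simp [hS0, h]), fun h => hx (by simp [hS0, h])⟩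
  have one_S0 : (1 : X) ∈ S0 := by simp [hS0, one_mem A]
  have closed : ∀ x y : X, x ∈ S0 → y ∈ A → y * x ∈ S0 := by
    intro x y hx hy
    rcases (Finset.mem_filter.1 hx).2 with h | h
    · simp [hS0, mul_mem hy h]
    · refine Finset.mem_filter.2 ⟨Finset.mem_univ _, Or.inr ?_⟩
      rw [← mul_assoc, hζc, mul_assoc]
      exact mul_mem hy h
  have hmulS0 : ∀ x y : X, x ∈ S0 → y ∈ S0 → x * y ∈ S0 := by
    intro x y hx hy
    rcases (Finset.mem_filter.1 hx).2 with h | h
    · exact closed y x hy h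
    · rcases (Finset.mem_filter.1 hy).2 with h' | h'
      · refine Finset.mem_filter.2 ⟨Finset.mem_univ _, Or.inr ?_⟩
        rw [← mul_assoc]
        exact mul_mem h h'
      · refine Finset.mem_filter.2 ⟨Finset.mem_univ _, Or.inl ?_⟩
        have : x * y = (ζ * x) * (ζ * y) := by
          rw [mul_assoc ζ x, ← mul_assoc x, ← hζc x, mul_assoc ζ x, ← mul_assoc ζ ζ, hζ, one_mul]
        rw [this]
        exact mul_mem h h'
  have hinvS0 : ∀ x : X, x ∈ S0 → x⁻¹ ∈ S0 := by
    intro x hx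
    rcases (Finset.mem_filter.1 hx).2 with h | h
    · simp [hS0, inv_mem h]
    · refine Finset.mem_filter.2 ⟨Finset.mem_univ _, Or.inr ?_⟩
      have : ζ * x⁻¹ = (ζ * x)⁻¹ := by
        rw [mul_inv_rev, inv_eq_of_mul_eq_one_right hζ, hζc]
      rw [this]
      exact inv_mem h
  have cancel : ∀ x y : X, x * y ∈ S0 → ∃ p ∈ S0, x = p * y⁻¹ := fun x y h => ⟨_, h, by rw [mul_inv_cancel_right]⟩
  have rot : ∀ p : X, p ∈ S0 → ∀ y : X, y ∈ C → ∃ p' ∈ S0, p * y = p' * y := fun p hp y _ => ⟨p, hp, rfl⟩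
  suffices ∃ a ∈ C, a ∉ A ∧ ζ * a ∉ A ∧ a * a = 1 by
    obtain ⟨a, haC, haA, haζ, ha2⟩ := this
    have hac : ∀ x ∈ A, a * x = x * a := fun x hx => (mem_centralizer_iff.1 haC x hx).symm
    obtain ⟨A', hle, haA', hA', hζA', hc', hrep⟩ := elem_insert hζ hA hζA (fun x _ => hζc x) ha2 hac haA haζ
    refine ⟨A', hA', hζA', hc', ?_⟩
    have hlt : C ⊓ Subgroup.centralizer ({a} : Set X) ≤ Subgroup.centralizer (A' : Set X) := by
      rintro x ⟨hx1, hx2⟩
      rw [mem_centralizer_iff]
      intro z hz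
      obtain ⟨y, hy, rfl | rfl⟩ := hrep z hz
      · exact mem_centralizer_iff.1 hx1 z hy
      · have e1 := mem_centralizer_iff.1 hx1 y hy
        have e2 := mem_centralizer_iff.1 hx2 a rfl
        rw [mul_assoc, e2, ← mul_assoc, e1, mul_assoc]
    refine le_trans ?_ (Nat.mul_le_mul le_rfl (Subgroup.card_le_of_le hlt))
    -- commutation with `a` has at most two values
    let f : C → Bool := fun x => decide (⁅(x : X), a⁆ = 1)
    have hfib : ∀ x y : C, f x = f y → (x : X)⁻¹ * y ∈ Subgroup.centralizer ({a} : Set X) := by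
      intro x y hxy
      have he : ⁅(x : X), a⁆ = ⁅(y : X), a⁆ := by
        simp only [f, decide_eq_decide] at hxy
        rcases hcomm x a with h | h <;> rcases hcomm y a with h' | h'
        · rw [h, h']
        · exact h.trans (hxy.1 h).symm
        · exact (hxy.2 h').trans h'.symm
        · rw [h, h']
      rw [mem_centralizer_iff]
      intro z hz
      rw [Set.mem_singleton_iff] at hz
      subst hz
      rw [commutatorElement_def, commutatorElement_def] at he
      have : (x : X) * z * (x : X)⁻¹ = y * z * (y : X)⁻¹ := mul_right_cancel he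
      calc z * ((x : X)⁻¹ * y) = (x : X)⁻¹ * ((x : X) * z * (x : X)⁻¹) * y := by group
        _ = (x : X)⁻¹ * y * z := by rw [this]; group
    have key : Nat.card C ≤ Nat.card (C ⊓ Subgroup.centralizer ({a} : Set X) : Subgroup X) * Nat.card Bool := by
      have : Function.Injective fun x : C => ((⟨((Function.invFun f (f x) : C) : X)⁻¹ * x,
          mem_inf.2 ⟨mul_mem (inv_mem (Function.invFun f (f x)).2) x.2,
            hfib _ _ (Function.invFun_eq ⟨x, rfl⟩)⟩⟩ : (C ⊓ Subgroup.centralizer ({a} : Set X) : Subgroup X)), f x) := by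
        intro x y hxy
        simp only [Prod.mk.injEq, Subtype.mk.injEq] at hxy
        rw [hxy.2] at hxy
        exact Subtype.ext (mul_left_cancel hxy.1)
      exact (Nat.card_le_card_of_injective _ this).trans (Nat.card_prod _ _).le
    rw [Nat.card_eq_fintype_card (α := Bool), Fintype.card_bool] at key
    omega
  by_contra hno
  push Not at hno
  have q : ∀ x ∈ C, x ∉ S0 → x * x = ζ := fun x hx hx0 =>
    (hsq x).resolve_left (hno x hx (hout x hx0).1 (hout x hx0).2)
  have memS1 : ∀ {S : Finset X} {x y : X}, y ∈ S → y ∈ S1 S x := fun h => Finset.mem_union_left _ h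
  have memS1' : ∀ {S : Finset X} {x y : X}, y ∈ S → y * x ∈ S1 S x := fun h =>
    Finset.mem_union_right _ (Finset.mem_image_of_mem _ h)
  have qu := q u huC hu
  have qv := q v hvC fun h => hv (memS1 h)
  have qw := q w hwC fun h => hw (memS1 (memS1 h))
  -- the square of a product
  have hsqmul : ∀ x y : X, x * x = ζ → y * y = ζ → (x * y) * (x * y) = ⁅x, y⁆ := by
    intro x y hx hy
    have hx' : x⁻¹ = ζ * x := inv_eq_of_mul_eq_one_right (by rw [← mul_assoc, ← hζc, mul_assoc, hx, hζ])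
    have hy' : y⁻¹ = ζ * y := inv_eq_of_mul_eq_one_right (by rw [← mul_assoc, ← hζc, mul_assoc, hy, hζ])
    rw [commutatorElement_def, hx', hy', mul_assoc (x * y) (ζ * x) (ζ * y), mul_assoc ζ x, ← mul_assoc x ζ,
      ← hζc x, mul_assoc ζ x, ← mul_assoc ζ ζ, hζ, one_mul]
  have nuv : u * v ∉ S0 := fun h => hv (by
    obtain ⟨p, hp, he⟩ : ∃ p ∈ S0, v = u⁻¹ * p := ⟨_, h, by group⟩
    rcases hcomm u⁻¹ p with hc | hc
    · rw [he, show u⁻¹ * p = p * u⁻¹ from commutatorElement_eq_one_iff_mul_comm.1 hc]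
      have hi : u⁻¹ = ζ * u := inv_eq_of_mul_eq_one_right (by rw [← mul_assoc, ← hζc, mul_assoc, qu, hζ])
      rw [hi, ← mul_assoc]
      exact memS1' (hmulS0 _ _ hp (Finset.mem_filter.2 ⟨Finset.mem_univ _, Or.inr (by rw [hζ]; exact one_mem A)⟩))
    · rw [he, show u⁻¹ * p = ζ * p * u⁻¹ by rw [← hc, commutatorElement_def]; group]
      have hi : u⁻¹ = ζ * u := inv_eq_of_mul_eq_one_right (by rw [← mul_assoc, ← hζc, mul_assoc, qu, hζ])
      have hζS : ζ ∈ S0 := Finset.mem_filter.2 ⟨Finset.mem_univ _, Or.inr (by rw [hζ]; exact one_mem A)⟩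
      rw [hi, ← mul_assoc]
      exact memS1' (hmulS0 _ _ (hmulS0 _ _ hζS hp) hζS))
  have hζS : ζ ∈ S0 := Finset.mem_filter.2 ⟨Finset.mem_univ _, Or.inr (by rw [hζ]; exact one_mem A)⟩
  have commS0 : ∀ x y : X, ∃ p ∈ S0, x * y = p * (y * x) := by
    intro x y
    refine ⟨⁅x, y⁆, ?_, by rw [commutatorElement_def]; group⟩
    rcases hcomm x y with h | h <;> rw [h]
    exacts [one_S0, hζS]
  have nuw : u * w ∉ S0 := fun h => hw (by
    obtain ⟨p, hp, he⟩ := commS0 w u
    have hp' : (ζ * p * (u * w)) * u ∈ S1 S0 u := memS1' (hmulS0 _ _ (hmulS0 _ _ hζS hp) h)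
    refine memS1 ?_
    have : w = ζ * p * (u * w) * u := by
      rw [mul_assoc ζ p, ← he, mul_assoc ζ, mul_assoc w, qu, ← hζc w, ← mul_assoc, hζ, one_mul]
    rwa [← this] at hp')
  have nvw : v * w ∉ S0 := fun h => hw (by
    obtain ⟨p, hp, he⟩ := commS0 w v
    have hp' : (ζ * p * (v * w)) * v ∈ S1 (S1 S0 u) v :=
      memS1' (memS1 (hmulS0 _ _ (hmulS0 _ _ hζS hp) h))
    have : w = ζ * p * (v * w) * v := by
      rw [mul_assoc ζ p, ← he, mul_assoc ζ, mul_assoc w, qv, ← hζc w, ← mul_assoc, hζ, one_mul]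
    rwa [← this] at hp')
  have nuvw : u * v * w ∉ S0 := fun h => hw (by
    obtain ⟨p, hp, he⟩ := commS0 w (u * v)
    have hinv : (u * v)⁻¹ = v⁻¹ * u⁻¹ := mul_inv_rev u v
    obtain ⟨p₂, hp₂, he₂⟩ := commS0 v u
    have hA' : (p * (u * v * w) * p₂⁻¹ * ζ * ζ) * u * v ∈ S1 (S1 S0 u) v :=
      memS1' (memS1' (hmulS0 _ _ (hmulS0 _ _ (hmulS0 _ _ (hmulS0 _ _ hp h) (hinvS0 _ hp₂)) hζS) hζS))
    have hvu : v * u * (u * v) = 1 := by
      rw [mul_assoc, ← mul_assoc u, qu, hζc v, ← mul_assoc, qv, hζ]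
    have : w = p * (u * v * w) * p₂⁻¹ * ζ * ζ * u * v := by
      rw [mul_assoc _ ζ ζ, hζ, mul_one, mul_assoc _ u v, ← he, mul_assoc (w * (u * v)) p₂⁻¹,
        show p₂⁻¹ * (u * v) = p₂⁻¹ * (u * v) from rfl]
      have hvu' : u * v = p₂⁻¹ * (v * u) := by rw [he₂, inv_mul_cancel_left]
      have hp₂2 : p₂⁻¹ * p₂⁻¹ = 1 ∨ True := Or.inr trivial
      rw [mul_assoc w, show u * v * (p₂⁻¹ * (u * v)) = 1 from ?_, mul_one]
      have hcp : p₂⁻¹ * (u * v) = (u * v) * p₂⁻¹ := by
        rcases hcomm v u with h' | h'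
        · have : p₂ = ⁅v, u⁆ := by rw [commutatorElement_def, ← mul_right_cancel_iff (a := u * v), ← he₂]; group
          rw [this, h', inv_one, one_mul, mul_one]
        · have : p₂ = ⁅v, u⁆ := by rw [commutatorElement_def, ← mul_right_cancel_iff (a := u * v), ← he₂]; group
          rw [this, h', inv_eq_of_mul_eq_one_right hζ, hζc]
      rw [hcp, ← mul_assoc, hsqmul u v qu qv]
      have : p₂ = ⁅u, v⁆⁻¹ := by
        rw [commutatorElement_inv, commutatorElement_def, ← mul_right_cancel_iff (a := u * v), ← he₂]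
        group
      rw [this, inv_inv]
      rcases hcomm u v with h' | h' <;> rw [h']
      · exact one_mul 1
      · exact hζ
    rwa [← this] at hA')
  have quv := q _ (mul_mem huC hvC) nuv
  have quw := q _ (mul_mem huC hwC) nuw
  have qvw := q _ (mul_mem hvC hwC) nvw
  have quvw := q _ (mul_mem (mul_mem huC hvC) hwC) nuvw
  have cuw : ⁅u, w⁆ = ζ := by rw [← hsqmul u w qu qw, quw]
  have cvw : ⁅v, w⁆ = ζ := by rw [← hsqmul v w qv qw, qvw]
  have hz : ⁅u * v, w⁆ = 1 := by
    rw [show ⁅u * v, w⁆ = u * ⁅v, w⁆ * u⁻¹ * ⁅u, w⁆ by simp only [commutatorElement_def]; group, cuw, cvw,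
      ← hζc u, mul_inv_cancel_right, hζ]
  rw [hsqmul _ _ quv qw, hz] at quvw
  exact hζA (quvw ▸ one_mem A)

end CfsgLib.RuType
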