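import Mathlib
import Cfsg.Agent.RuType.Action

/-!
For a 2-group of Rudvalis type the quotient of `W` by the third central term is the regular module of `T/W`.
-/

set_option autoImplicit false

namespace CfsgLib.RuType

open Subgroup
open scoped commutatorElement

variable {T : Type*} [Group T] [Finite T] {W : Subgroup T}

theorem eq_of_add_two : ∀ u v : ZMod 2, u + v = 0 → u = v := by decide

theorem one_add_one_two : (1 : ZMod 2) + 1 = 0 := by decide

/-- A regular coordinate system on `W` modulo the third central term. -/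
structure Theta (W : Subgroup T) [W.Normal] where
  θ : T → (T ⧸ W → ZMod 2)
  mul' : ∀ x ∈ W, ∀ y ∈ W, θ (x * y) = θ x + θ y
  ker' : ∀ x ∈ W, θ x = 0 ↔ x ∈ Zc T 3
  equiv' : ∀ (u : T), ∀ x ∈ W, ∀ g : T ⧸ W, θ (u * x * u⁻¹) g = θ x ((QuotientGroup.mk u : T ⧸ W)⁻¹ * g)
  surj' : ∀ f : T ⧸ W → ZMod 2, ∃ x ∈ W, θ x = f

/-- The numerical and commutator facts. -/
structure Facts (W : Subgroup T) : Prop where
  idx : W.index = 8
  cardW : Nat.card W = 2 ^ 11
  zle : Zc T 3 ≤ W
  comm : ∀ x ∈ W, ∀ y ∈ W, ⁅x, y⁆ ∈ Zc T 3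
  sq : ∀ x ∈ W, x * x ∈ Zc T 3
  derived : (_root_.commutator W).map W.subtype = Zc T 3
  fratt : (frattini W).map W.subtype = Zc T 3
  elem : ∀ x ∈ Zc T 3, x * x = 1

theorem Hyp.cardW_ge (h : Hyp W) : 2 ^ 11 ≤ Nat.card W := by
  have h1 := W.card_mul_index
  have h2 := h.index_le
  have h3 := h.big
  have : Nat.card W * W.index ≤ Nat.card W * 8 := Nat.mul_le_mul le_rfl h2
  omega

open Classical in
theorem Hyp.core (h : Hyp W) [W.Normal] :
    Nonempty (Theta W) ∧ W.index = 8 ∧ Nat.card W = 2 ^ 11 ∧ (frattini W).map W.subtype = Zc T 3 ∧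
      Zc T 3 ≤ W := by
  haveI : Fact (Nat.Prime 2) := ⟨Nat.prime_two⟩
  set Φ := (frattini W).map W.subtype with hΦ
  have hcardΦ : Nat.card Φ = Nat.card (frattini W) := Subgroup.card_map_of_injective W.subtype_injective
  have hnW : ∀ {k : ℕ}, k ≤ 3 → ¬ W ≤ Zc T k := fun {k} hk hle => by
    have h1 := (Subgroup.card_le_of_le hle).trans' h.cardW_ge
    rw [h.cardZ (by omega)] at h1
    have := Nat.pow_le_pow_right (show 1 ≤ 2 by norm_num) hk
    omega
  obtain ⟨j, hj⟩ := IsPGroup.iff_card.1 (h.isP.to_subgroup Φ)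
  have hj3 : j ≤ 3 := by
    by_contra hc
    have := Nat.pow_le_pow_right (show 1 ≤ 2 by norm_num) (show 4 ≤ j by omega)
    have := h.fr
    omega
  have hΦj : Φ = Zc T j := by
    rcases normal_le_or_ge h.isP h.z4 h.big16 Φ (show j < 4 by omega) with hle | hge
    · exact Subgroup.eq_of_le_of_card_ge hle (by rw [hj, h.cardZ (by omega)])
    · have := Subgroup.card_le_of_le hge
      rw [hj, h.cardZ (by omega), pow_succ] at this
      have := Nat.two_pow_pos j
      omega
  have hjW : Zc T (j + 1) ≤ W :=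
    (normal_le_or_ge h.isP h.z4 h.big16 W (show j < 4 by omega)).resolve_left (hnW hj3)
  obtain ⟨z, hz, hz'⟩ := h.exists_step (show j < 4 by omega)
  have hzΦ : (⟨z, hjW hz⟩ : W) ∉ frattini W := fun hc => hz' (hΦj ▸ Subgroup.mem_map_of_mem W.subtype hc)
  obtain ⟨M, hM, hzM⟩ : ∃ M : Subgroup W, IsCoatom M ∧ (⟨z, hjW hz⟩ : W) ∉ M := by
    by_contra hc
    push Not at hc
    exact hzΦ (Subgroup.mem_iInf.2 fun M => Subgroup.mem_iInf.2 fun hM => hc M hM)
  have hWp : IsPGroup 2 W := h.isP.to_subgroup W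
  haveI hMn : M.Normal := by
    haveI : Group.IsNilpotent W := hWp.isNilpotent
    exact Subgroup.NormalizerCondition.normal_of_coatom M Group.normalizerCondition_of_isNilpotent hM
  have hMi : M.index = 2 := by
    have hsq : ∀ x : W, x * x ∈ M := fun x => by
      rw [← pow_two]
      exact frattini_le_coatom hM (CfsgLib.CoprimeAction.pow_mem_frattini hWp x)
    obtain ⟨a, ha⟩ : ∃ a : W, a ∉ M := ⟨_, hzM⟩
    refine Subgroup.index_eq_two_iff.2 ⟨a, fun x => ?_⟩
    have htop : M ⊔ Subgroup.zpowers a = ⊤ :=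
      hM.2 _ (lt_of_le_of_ne le_sup_left fun he => ha (he.symm ▸ mem_sup_right (mem_zpowers a)))
    obtain ⟨m, hm, _, hp, rfl⟩ := Subgroup.mem_sup_of_normal_left.1 (htop ▸ mem_top x)
    obtain ⟨i, rfl⟩ := Subgroup.mem_zpowers_iff.1 hp
    have haa : ∀ n : ℤ, a ^ (2 * n) ∈ M := fun n => by
      rw [zpow_mul]
      exact zpow_mem (by rw [zpow_two]; exact hsq a) n
    rcases Int.even_or_odd i with ⟨n, hn⟩ | ⟨n, hn⟩
    · refine Or.inr ⟨mul_mem hm (by rw [hn, ← two_mul]; exact haa n), fun hc => ?_⟩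
      have hia : a ^ i ∈ M := by rw [hn, ← two_mul]; exact haa n
      rw [mul_assoc, M.mul_mem_cancel_left hm, M.mul_mem_cancel_left hia] at hc
      exact ha hc
    · refine Or.inl ⟨?_, fun hc => ?_⟩
      · rw [mul_assoc, M.mul_mem_cancel_left hm, hn, ← zpow_add_one,
          show 2 * n + 1 + 1 = 2 * (n + 1) by ring]
        exact haa _
      · rw [M.mul_mem_cancel_left hm, hn, zpow_add_one, M.mul_mem_cancel_left (haa n)] at hc
        exact ha hc
  set q : T → ZMod 2 := fun x => if x ∈ M.map W.subtype then 0 else 1 with hq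
  have hqval : ∀ (x : T) (hx : x ∈ W), q x = if (⟨x, hx⟩ : W) ∈ M then 0 else 1 := by
    intro x hx
    simp only [hq]
    congr 1
    exact propext ⟨fun ⟨m, hm, he⟩ => (show m = ⟨x, hx⟩ from Subtype.ext he) ▸ hm, fun hm => ⟨_, hm, rfl⟩⟩
  have hqmul : ∀ x ∈ W, ∀ y ∈ W, q (x * y) = q x + q y := by
    intro x hx y hy
    rw [hqval _ hx, hqval _ hy, hqval _ (mul_mem hx hy)]
    have hm := Subgroup.mul_mem_iff_of_index_two hMi (a := ⟨x, hx⟩) (b := ⟨y, hy⟩)
    change ((⟨x * y, mul_mem hx hy⟩ : W) ∈ M) ↔ _ at hm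
    split_ifs <;> simp_all [one_add_one_two]
  have hqconj : ∀ w ∈ W, ∀ x ∈ W, q (w⁻¹ * x * w) = q x := by
    intro w hw x hx
    rw [hqmul _ (mul_mem (inv_mem hw) hx) _ hw, hqmul _ (inv_mem hw) _ hx,
      add_right_comm, ← hqmul _ (inv_mem hw) _ hw, inv_mul_cancel]
    have : q 1 = 0 := by rw [hqval 1 (one_mem _)]; exact if_pos (one_mem M)
    rw [this, zero_add]
  have hconjW : ∀ (u : T) {x : T}, x ∈ W → u⁻¹ * x * u ∈ W := fun u x hx => by
    simpa using Subgroup.Normal.conj_mem (H := W) inferInstance x hx u⁻¹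
  set θ : T → (T ⧸ W → ZMod 2) := fun x g => q (g.out⁻¹ * x * g.out) with hθ
  have hspec : ∀ {x : T}, x ∈ W → ∀ t : T, θ x (QuotientGroup.mk t) = q (t⁻¹ * x * t) := by
    intro x hx t
    have hw : t⁻¹ * (QuotientGroup.mk t : T ⧸ W).out ∈ W :=
      QuotientGroup.eq.1 (QuotientGroup.out_eq' _).symm
    rw [← hqconj _ hw _ (hconjW t hx)]
    change q _ = q _
    congr 1
    group
  have hmul : ∀ x ∈ W, ∀ y ∈ W, θ (x * y) = θ x + θ y := by
    intro x hx y hy
    funext g
    rw [Pi.add_apply]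
    change q _ = q _ + q _
    rw [← hqmul _ (hconjW _ hx) _ (hconjW _ hy)]
    congr 1
    group
  have hequiv : ∀ (u : T), ∀ x ∈ W, ∀ g : T ⧸ W,
      θ (u * x * u⁻¹) g = θ x ((QuotientGroup.mk u : T ⧸ W)⁻¹ * g) := by
    intro u x hx g
    induction g using QuotientGroup.induction_on with
    | _ t =>
      rw [← QuotientGroup.mk_inv, ← QuotientGroup.mk_mul,
        hspec (Subgroup.Normal.conj_mem (H := W) inferInstance x hx u), hspec hx]
      congr 1
      group
  have hone : θ 1 = 0 := by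
    funext g
    change q (g.out⁻¹ * 1 * g.out) = 0
    rw [mul_one, inv_mul_cancel, hqval 1 (one_mem _)]
    exact if_pos (one_mem M)
  let K : Subgroup T :=
    { carrier := {x | x ∈ W ∧ θ x = 0}
      one_mem' := ⟨one_mem _, hone⟩
      mul_mem' := fun {a b} ha hb => ⟨mul_mem ha.1 hb.1, by rw [hmul _ ha.1 _ hb.1, ha.2, hb.2, add_zero]⟩
      inv_mem' := fun {a} ha => ⟨inv_mem ha.1, by
        have := hmul _ (inv_mem ha.1) _ ha.1
        rw [inv_mul_cancel, hone, ha.2, add_zero] at this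
        exact this.symm⟩ }
  have hKn : K.Normal := ⟨fun x hx u => ⟨Subgroup.Normal.conj_mem (H := W) inferInstance x hx.1 u, by
    funext g
    rw [hequiv u x hx.1 g, hx.2]
    rfl⟩⟩
  have hKΦ : Φ ≤ K := by
    rintro x ⟨y, hy, rfl⟩
    have hyc : ∀ u : T, (⟨u⁻¹ * y * u, hconjW u y.2⟩ : W) ∈ frattini W := fun u => by
      have hmem : u⁻¹ * (y : T) * u⁻¹⁻¹ ∈ Φ :=
        (show Φ.Normal by rw [hΦj]; infer_instance).conj_mem _ (Subgroup.mem_map_of_mem W.subtype hy) u⁻¹
      rw [inv_inv] at hmem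
      obtain ⟨m, hm, he⟩ := hmem
      exact (show m = ⟨u⁻¹ * y * u, hconjW u y.2⟩ from Subtype.ext he) ▸ hm
    refine ⟨y.2, funext fun g => ?_⟩
    change q (g.out⁻¹ * (y : T) * g.out) = 0
    rw [hqval _ (hconjW _ y.2), if_pos (frattini_le_coatom hM (hyc _))]
  have hzK : z ∉ K := fun hc => by
    have h0 := congrFun hc.2 (QuotientGroup.mk (1 : T))
    rw [hspec (hjW hz) 1, inv_one, one_mul, mul_one, hqval _ (hjW hz), if_neg hzM] at h0
    exact one_ne_zero h0
  have hKeq : K = Φ := by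
    refine le_antisymm ?_ hKΦ
    rcases normal_le_or_ge h.isP h.z4 h.big16 K (show j < 4 by omega) with hle | hge
    · exact hle.trans hΦj.ge
    · exact absurd (hge hz) hzK
  have hker : ∀ x ∈ W, θ x = 0 ↔ x ∈ Φ := fun x hx => by
    rw [← hKeq]
    exact ⟨fun h0 => ⟨hx, h0⟩, fun hK => hK.2⟩
  -- counting
  let θh : W →* Multiplicative (T ⧸ W → ZMod 2) :=
    { toFun := fun x => Multiplicative.ofAdd (θ x)
      map_one' := congrArg Multiplicative.ofAdd hone
      map_mul' := fun x y => congrArg Multiplicative.ofAdd (hmul _ x.2 _ y.2) }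
  have hkerh : θh.ker = frattini W := by
    ext x
    rw [MonoidHom.mem_ker]
    change Multiplicative.ofAdd (θ x) = Multiplicative.ofAdd 0 ↔ _
    rw [Multiplicative.ofAdd.apply_eq_iff_eq, hker _ x.2]
    exact ⟨fun ⟨m, hm, he⟩ => (show m = x from Subtype.ext he) ▸ hm, fun hm => ⟨_, hm, rfl⟩⟩
  have hV : Nat.card (Multiplicative (T ⧸ W → ZMod 2)) = 2 ^ W.index := by
    rw [Nat.card_congr Multiplicative.toAdd, Nat.card_fun, Nat.card_eq_fintype_card, ZMod.card,
      ← Subgroup.index_eq_card]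
  have hsplit : Nat.card W = 2 ^ j * Nat.card θh.range := by
    rw [← θh.ker.card_mul_index, Subgroup.index_ker, hkerh, ← hcardΦ, hj]
  have hr : Nat.card θh.range ≤ 2 ^ W.index := hV ▸ Subgroup.card_le_card_group _
  have htot := W.card_mul_index
  have hi := h.index_le
  have hb := h.big
  have h2j : (2 : ℕ) ^ j ≤ 8 := hj ▸ hcardΦ ▸ h.fr
  have h2i : (2 : ℕ) ^ W.index ≤ 2 ^ 8 := Nat.pow_le_pow_right (by norm_num) hi
  have hWle : Nat.card W ≤ 2 ^ 11 := by
    rw [hsplit]
    calc 2 ^ j * Nat.card θh.range ≤ 8 * 2 ^ 8 := Nat.mul_le_mul h2j (hr.trans h2i)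
      _ = 2 ^ 11 := by norm_num
  have hW : Nat.card W = 2 ^ 11 := le_antisymm hWle h.cardW_ge
  have hidx : W.index = 8 := by
    rw [hW] at htot
    omega
  have hj' : j = 3 := by
    by_contra hne
    have : (2 : ℕ) ^ j ≤ 4 := by
      calc (2 : ℕ) ^ j ≤ 2 ^ 2 := Nat.pow_le_pow_right (by norm_num) (by omega)
        _ = 4 := by norm_num
    have : 2 ^ j * Nat.card θh.range ≤ 4 * 2 ^ 8 := Nat.mul_le_mul this (hr.trans h2i)
    omega
  subst hj'
  have hsurj : ∀ f : T ⧸ W → ZMod 2, ∃ x ∈ W, θ x = f := by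
    intro f
    have htop : θh.range = ⊤ := by
      refine Subgroup.eq_top_of_le_card _ ?_
      rw [hV, hidx]
      rw [hW] at hsplit
      omega
    obtain ⟨x, hx⟩ := MonoidHom.mem_range.1 (htop ▸ Subgroup.mem_top (Multiplicative.ofAdd f) :
      Multiplicative.ofAdd f ∈ θh.range)
    exact ⟨x, x.2, Multiplicative.ofAdd.injective hx⟩
  exact ⟨⟨⟨θ, hmul, fun x hx => (hker x hx).trans (by rw [hΦj]), hequiv, hsurj⟩⟩, hidx, hW, hΦj,
    hΦj ▸ Subgroup.map_subtype_le _⟩

theorem Hyp.facts (h : Hyp W) : Facts W := by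
  haveI : Fact (Nat.Prime 2) := ⟨Nat.prime_two⟩
  haveI := h.wnormal
  obtain ⟨⟨th⟩, hidx, hW, hfr, hzle⟩ := h.core
  have hWp : IsPGroup 2 W := h.isP.to_subgroup W
  have hsq : ∀ x ∈ W, x * x ∈ Zc T 3 := by
    intro x hx
    rw [← hfr, ← pow_two]
    exact Subgroup.mem_map_of_mem W.subtype (CfsgLib.CoprimeAction.pow_mem_frattini hWp ⟨x, hx⟩)
  have hcomm : ∀ x ∈ W, ∀ y ∈ W, ⁅x, y⁆ ∈ Zc T 3 := by
    intro x hx y hy
    have hm : ⁅x, y⁆ ∈ W := mul_mem (mul_mem (mul_mem hx hy) (inv_mem hx)) (inv_mem hy)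
    refine (th.ker' _ hm).1 ?_
    have h1 : th.θ 1 = 0 := by
      have := th.mul' 1 (one_mem _) 1 (one_mem _)
      rw [mul_one] at this
      simpa using this
    have hinv : ∀ a ∈ W, th.θ a⁻¹ = th.θ a := by
      intro a ha
      have := th.mul' a⁻¹ (inv_mem ha) a ha
      rw [inv_mul_cancel] at this
      rw [h1] at this
      funext g
      have hg := congrFun this g
      rw [Pi.add_apply, Pi.zero_apply] at hg
      exact eq_of_add_two _ _ hg.symm
    rw [commutatorElement_def, th.mul' _ (mul_mem (mul_mem hx hy) (inv_mem hx)) _ (inv_mem hy),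
      th.mul' _ (mul_mem hx hy) _ (inv_mem hx), th.mul' _ hx _ hy, hinv _ hx, hinv _ hy]
    funext g
    simp only [Pi.add_apply, Pi.zero_apply]
    generalize th.θ x g = u
    generalize th.θ y g = v
    revert u v; decide
  -- the derived subgroup is the whole of the third term
  set D := _root_.commutator W with hD
  have hder : frattini W ≤ D := by
    by_contra hne
    obtain ⟨y₀, hy₀, hy₀'⟩ := SetLike.not_le_iff_exists.1 hne
    obtain ⟨y, hy, hy', hy2⟩ : ∃ y ∈ frattini W, y ∉ D ∧ y * y ∈ D := by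
      obtain ⟨k, hk⟩ := hWp y₀
      have hex : ∃ i, y₀ ^ 2 ^ i ∈ D := ⟨k, hk ▸ one_mem _⟩
      classical
      obtain ⟨i, hi⟩ : ∃ i, Nat.find hex = i + 1 := ⟨Nat.find hex - 1, by
        have : Nat.find hex ≠ 0 := fun h0 => hy₀' (by simpa [h0] using Nat.find_spec hex)
        omega⟩
      refine ⟨y₀ ^ 2 ^ i, pow_mem hy₀ _, Nat.find_min hex (by omega), ?_⟩
      rw [← pow_add, ← two_mul, ← pow_succ']
      have := Nat.find_spec hex
      rwa [hi] at this
    obtain ⟨U, hU⟩ := ({U : Subgroup W | D ≤ U ∧ y ∉ U}).toFinite.exists_maximal ⟨D, le_rfl, hy'⟩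
    haveI hUn : U.Normal := ⟨fun m hm g => by
      have hc : g * m * g⁻¹ * m⁻¹ ∈ D :=
        Subgroup.commutator_mem_commutator (mem_top g) (mem_top m)
      simpa using mul_mem (hU.prop.1 hc) hm⟩
    have hab : ∀ a b : W ⧸ U, a * b = b * a := by
      intro a b
      induction a using QuotientGroup.induction_on with
      | _ a => induction b using QuotientGroup.induction_on with
        | _ b =>
          rw [← QuotientGroup.mk_mul, ← QuotientGroup.mk_mul, QuotientGroup.eq]
          refine hU.prop.1 ?_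
          rw [show (a * b)⁻¹ * (b * a) = ⁅b⁻¹, a⁻¹⁆ by simp only [commutatorElement_def]; group]
          exact Subgroup.commutator_mem_commutator (mem_top _) (mem_top _)
    -- the only involution of the quotient
    have huniq : ∀ a : W ⧸ U, a * a = 1 → a = 1 ∨ a = QuotientGroup.mk y := by
      intro a ha
      induction a using QuotientGroup.induction_on with
      | _ a =>
        by_cases haU : a ∈ U
        · exact Or.inl ((QuotientGroup.eq_one_iff a).2 haU)
        · refine Or.inr ?_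
          have hlt : U < U ⊔ zpowers a :=
            lt_of_le_of_ne le_sup_left fun he => haU (he ▸ mem_sup_right (mem_zpowers a))
          have hyU : y ∈ U ⊔ zpowers a := by
            by_contra hc
            exact hlt.not_ge (hU.le_of_ge ⟨hU.prop.1.trans le_sup_left, hc⟩ le_sup_left)
          obtain ⟨u, hu, _, hp, hye⟩ := Subgroup.mem_sup_of_normal_left.1 hyU
          obtain ⟨i, rfl⟩ := Subgroup.mem_zpowers_iff.1 hp
          have hu1 : (QuotientGroup.mk u : W ⧸ U) = 1 := (QuotientGroup.eq_one_iff u).2 hu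
          rw [← hye, QuotientGroup.mk_mul, hu1, one_mul, QuotientGroup.mk_zpow]
          rcases Int.even_or_odd i with ⟨n, hn⟩ | ⟨n, hn⟩
          · exfalso
            apply hU.prop.2
            rw [← QuotientGroup.eq_one_iff, ← hye, QuotientGroup.mk_mul, hu1, one_mul,
              QuotientGroup.mk_zpow, hn, ← two_mul, zpow_mul, zpow_two, ha, one_zpow]
          · rw [hn, zpow_add_one, zpow_mul, zpow_two, ha, one_zpow, one_mul]
    let sqh : W ⧸ U →* W ⧸ U :=
      { toFun := fun a => a * a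
        map_one' := one_mul 1
        map_mul' := fun a b => by rw [mul_assoc, ← mul_assoc b, hab b a, mul_assoc, ← mul_assoc] }
    have hker : Nat.card sqh.ker ≤ 2 := by
      classical
      have : (sqh.ker : Set (W ⧸ U)) ⊆ {1, QuotientGroup.mk y} := fun a ha => huniq a ha
      exact (Nat.card_mono (Set.toFinite _) this).trans (by
        rw [Nat.card_coe_set_eq]
        exact (Set.ncard_insert_le _ _).trans (by rw [Set.ncard_singleton]))
    have hrange : sqh.range ≤ (frattini W).map (QuotientGroup.mk' U) := by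
      rintro _ ⟨a, rfl⟩
      induction a using QuotientGroup.induction_on with
      | _ a =>
        refine ⟨a * a, ?_, rfl⟩
        rw [SetLike.mem_coe, ← pow_two]
        exact CfsgLib.CoprimeAction.pow_mem_frattini hWp a
    have hidxU : U.index ≤ 16 := by
      rw [Subgroup.index_eq_card, ← sqh.ker.card_mul_index, Subgroup.index_ker]
      refine le_trans (Nat.mul_le_mul hker ((Subgroup.card_le_of_le hrange).trans (?_ : _ ≤ 8))) (by norm_num)
      exact (Nat.le_of_dvd Nat.card_pos (Subgroup.card_map_dvd _ _)).trans h.fr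
    exact hU.prop.2 (h.sub U hidxU hy)
  have hderived : D.map W.subtype = Zc T 3 := by
    refine le_antisymm ?_ (hfr ▸ Subgroup.map_mono hder)
    rw [hD, _root_.commutator_def, Subgroup.map_commutator, Subgroup.commutator_le]
    rintro _ ⟨a, -, rfl⟩ _ ⟨b, -, rfl⟩
    exact hcomm _ a.2 _ b.2
  -- squares of commutators vanish
  have helem : ∀ x ∈ Zc T 3, x * x = 1 := by
    have hab : ∀ a ∈ Zc T 3, ∀ b ∈ Zc T 3, a * b = b * a := fun a ha b hb => by
      have := hzle ha
      rw [h.cent, mem_centralizer_iff] at this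
      exact (this b hb).symm
    intro x hx
    rw [← hderived] at hx
    obtain ⟨d, hd, rfl⟩ := hx
    rw [hD, _root_.commutator_eq_closure] at hd
    have hd' : (d : T) ∈ Zc T 3 ∧ (d : T) * d = 1 := by
      refine Subgroup.closure_induction (p := fun (d : W) _ => (d : T) ∈ Zc T 3 ∧ (d : T) * d = 1)
        ?_ ⟨one_mem _, mul_one _⟩ ?_ ?_ hd
      · rintro _ ⟨a, b, rfl⟩
        change ⁅(a : T), (b : T)⁆ ∈ _ ∧ ⁅(a : T), (b : T)⁆ * ⁅(a : T), (b : T)⁆ = 1
        refine ⟨hcomm _ a.2 _ b.2, ?_⟩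
        have hc : ∀ w ∈ W, (w : T) * ⁅(a : T), (b : T)⁆ * w⁻¹ = ⁅(a : T), (b : T)⁆ := fun w hw =>
          fix_iff.1 (h.fix_of_mem hw (hcomm _ a.2 _ b.2))
        have h1 : ⁅(a : T) * a, (b : T)⁆ = ⁅(a : T), (b : T)⁆ * ⁅(a : T), (b : T)⁆ := by
          rw [comm_mul_left, hc _ a.2]
        rw [← h1, fix_iff]
        have hb' := h.fix_of_mem b.2 (hsq _ a.2)
        rw [fix_iff] at hb'
        rw [mul_inv_eq_iff_eq_mul] at hb' ⊢
        exact hb'.symm
      · rintro a b _ _ ⟨ha, ha2⟩ ⟨hb, hb2⟩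
        refine ⟨mul_mem ha hb, ?_⟩
        rw [Subgroup.coe_mul, mul_assoc, ← mul_assoc (b : T), hab _ hb _ ha, mul_assoc, hb2, mul_one, ha2]
      · rintro a _ ⟨ha, ha2⟩
        refine ⟨inv_mem ha, ?_⟩
        rw [Subgroup.coe_inv, ← mul_inv_rev, ha2, inv_one]
    exact hd'.2
  exact ⟨hidx, hW, hzle, hcomm, hsq, hderived, hfr, helem⟩

end CfsgLib.RuType
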