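import Mathlib
import Cfsg.Agent.RuType.Regular
import Cfsg.Agent.RuType.Isotropic

/-!
The commutator form on `W` modulo the second central term and its invariance.
-/

set_option autoImplicit false

namespace CfsgLib.RuType

open Subgroup
open scoped commutatorElement Classical

variable {T : Type*} [Group T] [Finite T] {W : Subgroup T} [W.Normal]

namespace Theta

variable (th : Theta W)

theorem map_one' : th.θ 1 = 0 := by
  have := th.mul' 1 (one_mem _) 1 (one_mem _)
  rw [mul_one] at this
  simpa using this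

theorem congr' {x y : T} (hx : x ∈ W) (hy : y ∈ W) (h : th.θ x = th.θ y) : x⁻¹ * y ∈ Zc T 3 := by
  refine (th.ker' _ (mul_mem (inv_mem hx) hy)).1 ?_
  have h1 := th.mul' _ (inv_mem hx) _ hx
  rw [inv_mul_cancel, th.map_one'] at h1
  rw [th.mul' _ (inv_mem hx) _ hy, ← h]
  exact h1.symm

/-- A chosen preimage of a function. -/
noncomputable def lift (f : T ⧸ W → ZMod 2) : T := (th.surj' f).choose

theorem lift_mem (f : T ⧸ W → ZMod 2) : th.lift f ∈ W := (th.surj' f).choose_spec.1

theorem θ_lift (f : T ⧸ W → ZMod 2) : th.θ (th.lift f) = f := (th.surj' f).choose_spec.2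

/-- The preimage of a point mass. -/
noncomputable def point (g : T ⧸ W) : T := th.lift (Pi.single g 1)

theorem point_mem (g : T ⧸ W) : th.point g ∈ W := th.lift_mem _

theorem θ_point (g : T ⧸ W) : th.θ (th.point g) = Pi.single g 1 := th.θ_lift _

theorem conj_point (u : T) (g : T ⧸ W) :
    th.θ (u * th.point g * u⁻¹) = th.θ (th.point (QuotientGroup.mk u * g)) := by
  funext k
  rw [th.equiv' u _ (th.point_mem g) k, th.θ_point, th.θ_point, Pi.single_apply, Pi.single_apply]
  simp only [inv_mul_eq_iff_eq_mul]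

end Theta

/-- The form: the image of a commutator outside the second term. -/
noncomputable def form (x y : T) : ZMod 2 := if ⁅x, y⁆ ∈ Zc T 2 then 0 else 1

variable (h : Hyp W)

include h

theorem zle : Zc T 3 ≤ W := h.facts.zle

theorem ite_mul {x y : T} (hx : x ∈ Zc T 3) (hy : y ∈ Zc T 3) :
    (if x * y ∈ Zc T 2 then (0 : ZMod 2) else 1) =
      (if x ∈ Zc T 2 then 0 else 1) + (if y ∈ Zc T 2 then 0 else 1) := by
  have := h.double (k := 2) (by omega) hx hy
  split_ifs <;> simp_all [one_add_one_two]

theorem comm_mul {x y z : T} (hx : x ∈ W) (hy : y ∈ W) (hz : z ∈ W) :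
    ⁅x * y, z⁆ = ⁅x, z⁆ * ⁅y, z⁆ := by
  have h1 := fix_iff.1 (h.fix_of_mem hx (h.facts.comm _ hy _ hz))
  rw [comm_mul_left, h1]
  have hc : ⁅y, z⁆ ∈ W := zle h (h.facts.comm _ hy _ hz)
  rw [h.cent, mem_centralizer_iff] at hc
  exact (hc _ (h.facts.comm _ hx _ hz)).symm

theorem form_mul_left {x y z : T} (hx : x ∈ W) (hy : y ∈ W) (hz : z ∈ W) :
    form (x * y) z = form x z + form y z := by
  unfold form
  rw [comm_mul h hx hy hz]
  exact ite_mul h (h.facts.comm _ hx _ hz) (h.facts.comm _ hy _ hz)

theorem form_symm {x y : T} (hx : x ∈ W) (hy : y ∈ W) : form x y = form y x := by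
  unfold form
  rw [← commutatorElement_inv y x, inv_mem_iff]

theorem form_mul_right {x y z : T} (hx : x ∈ W) (hy : y ∈ W) (hz : z ∈ W) :
    form x (y * z) = form x y + form x z := by
  rw [form_symm h hx (mul_mem hy hz), form_mul_left h hy hz hx, form_symm h hy hx, form_symm h hz hx]

theorem form_zero_left {x y : T} (hx : x ∈ Zc T 3) (hy : y ∈ W) : form x y = 0 := by
  have : ⁅x, y⁆ = 1 := by
    rw [← commutatorElement_inv, h.fix_of_mem hy hx, inv_one]
  unfold form
  rw [this, if_pos (one_mem _)]

theorem form_conj (u x y : T) : form (u * x * u⁻¹) (u * y * u⁻¹) = form x y := by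
  unfold form
  have e : ⁅u * x * u⁻¹, u * y * u⁻¹⁆ = u * ⁅x, y⁆ * u⁻¹ := by
    simp only [commutatorElement_def]
    group
  rw [e]
  congr 1
  have hn : (Zc T 2).Normal := inferInstance
  refine propext ⟨fun hh => ?_, fun hh => hn.conj_mem _ hh u⟩
  have := hn.conj_mem _ hh u⁻¹
  simpa [mul_assoc] using this

theorem form_congr_left (th : Theta W) {x x' y : T} (hx : x ∈ W) (hx' : x' ∈ W) (hy : y ∈ W)
    (he : th.θ x = th.θ x') : form x y = form x' y := by
  have hd := th.congr' hx hx' he
  rw [show x' = x * (x⁻¹ * x') by group, form_mul_left h hx (zle h hd) hy, form_zero_left h hd hy, add_zero]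

theorem form_congr_right (th : Theta W) {x x' y : T} (hx : x ∈ W) (hx' : x' ∈ W) (hy : y ∈ W)
    (he : th.θ x = th.θ x') : form y x = form y x' := by
  rw [form_symm h hy hx, form_symm h hy hx', form_congr_left h th hx hx' hy he]

/-- The expansion of the form along point masses. -/
theorem form_expand (th : Theta W) [Fintype (T ⧸ W)] {x y : T} (hx : x ∈ W) (hy : y ∈ W) :
    form x y = ∑ g : T ⧸ W, th.θ x g * form (th.point g) y := by
  let L : (T ⧸ W → ZMod 2) →+ ZMod 2 :=
    { toFun := fun f => form (th.lift f) y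
      map_zero' := by
        rw [form_congr_left h th (th.lift_mem 0) (one_mem W) hy (by rw [th.θ_lift, th.map_one'])]
        exact form_zero_left h (one_mem _) hy
      map_add' := fun f f' => by
        rw [← form_mul_left h (th.lift_mem f) (th.lift_mem f') hy]
        refine form_congr_left h th (th.lift_mem _) (mul_mem (th.lift_mem f) (th.lift_mem f')) hy ?_
        rw [th.θ_lift, th.mul' _ (th.lift_mem f) _ (th.lift_mem f'), th.θ_lift, th.θ_lift] }
  have h1 : form x y = L (th.θ x) := form_congr_left h th hx (th.lift_mem _) hy (th.θ_lift _).symm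
  rw [h1]
  conv_lhs => rw [← Finset.univ_sum_single (th.θ x)]
  rw [map_sum]
  refine Finset.sum_congr rfl fun g _ => ?_
  rcases (show ∀ a : ZMod 2, a = 0 ∨ a = 1 by decide) (th.θ x g) with ha | ha <;> rw [ha]
  · rw [Pi.single_zero, map_zero, zero_mul]
  · rw [one_mul]
    rfl

/-- The value function of the form. -/
noncomputable def phi (th : Theta W) (g : T ⧸ W) : ZMod 2 := form (th.point 1) (th.point g)

theorem form_point (th : Theta W) (k g : T ⧸ W) : form (th.point k) (th.point g) = phi th (k⁻¹ * g) := by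
  induction k using QuotientGroup.induction_on with
  | _ u =>
    unfold phi
    rw [← form_conj h u (th.point 1)]
    have hn : W.Normal := inferInstance
    rw [form_congr_left h th (hn.conj_mem _ (th.point_mem 1) u) (th.point_mem (QuotientGroup.mk u))
      (hn.conj_mem _ (th.point_mem _) u) (by rw [th.conj_point, mul_one]),
      form_congr_right h th (hn.conj_mem _ (th.point_mem _) u) (th.point_mem g) (th.point_mem _)
      (by rw [th.conj_point, mul_inv_cancel_left])]

theorem phi_one (th : Theta W) : phi th 1 = 0 := by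
  unfold phi form
  rw [commutatorElement_self, if_pos (one_mem _)]

theorem phi_inv (th : Theta W) (g : T ⧸ W) : phi th g⁻¹ = phi th g := by
  have h1 := form_point h th g 1
  rw [mul_one] at h1
  rw [← h1]
  exact form_symm h (th.point_mem _) (th.point_mem _)

theorem comm_point_congr (th : Theta W) {x x' y y' : T} (hx : x ∈ W) (hx' : x' ∈ W) (hy : y ∈ W) (hy' : y' ∈ W)
    (ex : th.θ x = th.θ x') (ey : th.θ y = th.θ y') : ⁅x, y⁆ = ⁅x', y'⁆ := by
  have key : ∀ {a a' b : T}, a ∈ W → a' ∈ W → b ∈ W → th.θ a = th.θ a' → ⁅a, b⁆ = ⁅a', b⁆ := by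
    intro a a' b ha ha' hb he
    have hd := th.congr' ha ha' he
    conv_rhs => rw [show a' = a * (a⁻¹ * a') by group]
    rw [comm_mul h ha (zle h hd) hb, ← commutatorElement_inv b (a⁻¹ * a'), h.fix_of_mem hb hd, inv_one,
      mul_one]
  rw [key hx hx' hy ex, ← commutatorElement_inv y x', key hy hy' hx' ey, commutatorElement_inv]

theorem phi_fixed_zero (th : Theta W) {t : T} (ht : (QuotientGroup.mk t : T ⧸ W) * QuotientGroup.mk t = 1)
    (hfix : ∀ x ∈ Zc T 3, t * x * t⁻¹ = x → x ∈ Zc T 2) : phi th (QuotientGroup.mk t) = 0 := by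
  unfold phi form
  rw [if_pos]
  set c := ⁅th.point 1, th.point (QuotientGroup.mk t)⁆ with hc
  have hcm : c ∈ Zc T 3 := h.facts.comm _ (th.point_mem _) _ (th.point_mem _)
  refine hfix c hcm ?_
  have hn : W.Normal := inferInstance
  have e : t * c * t⁻¹ = ⁅t * th.point 1 * t⁻¹, t * th.point (QuotientGroup.mk t) * t⁻¹⁆ := by
    rw [hc]
    simp only [commutatorElement_def]
    group
  rw [e, comm_point_congr h th (hn.conj_mem _ (th.point_mem _) t) (th.point_mem (QuotientGroup.mk t))
    (hn.conj_mem _ (th.point_mem _) t) (th.point_mem 1) (by rw [th.conj_point, mul_one])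
    (by rw [th.conj_point, ht]), ← commutatorElement_inv, ← hc]
  exact inv_eq_of_mul_eq_one_right (h.facts.elem c hcm)

end CfsgLib.RuType
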