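import Mathlib
import Cfsg.Agent.RuType.Forms

/-!
The socle of `W` modulo the third term is not in the radical of the commutator form modulo the second term;
in particular the centre of `W` is the third term.
-/

set_option autoImplicit false

namespace CfsgLib.RuType

open Subgroup
open scoped commutatorElement Classical

variable {T : Type*} [Group T] [Finite T] {W : Subgroup T} [W.Normal]

theorem mk_eq_of_pair (h : Hyp W) {e₂ e₃ : T} (h₂ : e₂ ∈ Zc T 2) (h₂' : e₂ ∉ Zc T 1) (h₃ : e₃ ∈ Zc T 3)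
    (h₃' : e₃ ∉ Zc T 2) {t u : T} (f₂ : ⁅t, e₂⁆ = ⁅u, e₂⁆) (f₃ : ⁅t, e₃⁆ = ⁅u, e₃⁆) :
    (QuotientGroup.mk t : T ⧸ W) = QuotientGroup.mk u :=
  QuotientGroup.eq.2 (h.pair_injective h₂ h₂' h₃ h₃' f₂ f₃)

/-- The central involution of `T/W` and the symmetry of `phi` it gives when the socle is in the radical. -/
theorem exists_sym (h : Hyp W) (th : Theta W) {z : T} (hz : z ∈ W) (hθ : th.θ z = 1)
    (hrad : ∀ y ∈ W, form z y = 0) :
    ∃ c : T ⧸ W, c ≠ 1 ∧ c * c = 1 ∧ (∀ g, g * c = c * g) ∧ ∀ g, phi th (g * c) = phi th g := by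
  haveI : Fintype (T ⧸ W) := Fintype.ofFinite _
  obtain ⟨e₁, h₁, h₁'⟩ := h.exists_step (k := 0) (by omega)
  obtain ⟨e₂, h₂, h₂'⟩ := h.exists_step (k := 1) (by omega)
  obtain ⟨e₃, h₃, h₃'⟩ := h.exists_step (k := 2) (by omega)
  have h12 : Zc T 1 ≤ Zc T 2 := Subgroup.upperCentralSeries_mono T (by omega)
  have h23 : Zc T 2 ≤ Zc T 3 := Subgroup.upperCentralSeries_mono T (by omega)
  have h1ne : e₁ ≠ 1 := fun he => h₁' (Hyp.zero_mem.2 he)
  obtain ⟨tc, hc₂, hc₃⟩ := h.exists_pair h.facts.idx h₂ h₂' h₃ h₃' (one_mem _) (h12 h₁)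
  set c : T ⧸ W := QuotientGroup.mk tc with hc
  -- composition rules
  have f₂mul : ∀ t u : T, ⁅t * u, e₂⁆ = ⁅u, e₂⁆ * ⁅t, e₂⁆ := fun t u => by
    rw [comm_mul_left, Hyp.central (comm_mem_succ h₂ u) t]
  have f₃mul : ∀ t u : T, ⁅t * u, e₃⁆ = t * ⁅u, e₃⁆ * t⁻¹ * ⁅t, e₃⁆ := fun t u => comm_mul_left t u e₃
  have mk_eq : ∀ {t u : T}, ⁅t, e₂⁆ = ⁅u, e₂⁆ → ⁅t, e₃⁆ = ⁅u, e₃⁆ →
      (QuotientGroup.mk t : T ⧸ W) = QuotientGroup.mk u := fun f₂ f₃ => mk_eq_of_pair h h₂ h₂' h₃ h₃' f₂ f₃
  have one₂ : ∀ x : T, ⁅(1 : T), x⁆ = 1 := fun x => commutatorElement_one_left x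
  have hc1 : c ≠ 1 := fun he => by
    have hm : tc ∈ W := (QuotientGroup.eq_one_iff tc).1 he
    exact h1ne (hc₃.symm.trans (h.fix_of_mem hm h₃))
  have fcr₂ : ∀ t : T, ⁅t * tc, e₂⁆ = ⁅t, e₂⁆ := fun t => by rw [f₂mul, hc₂, one_mul]
  have fcr₃ : ∀ t : T, ⁅t * tc, e₃⁆ = e₁ * ⁅t, e₃⁆ := fun t => by rw [f₃mul, hc₃, Hyp.central h₁ t]
  have two_fix : ∀ {t : T}, ⁅t, e₂⁆ = 1 → ∀ q ∈ Zc T 2, t * q * t⁻¹ = q := by
    intro t ht q hq
    by_cases hq1 : q ∈ Zc T 1
    · exact Hyp.central hq1 t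
    · have hs := Hyp.central (h.step_rep (k := 1) (by omega) h₂ h₂' hq hq1) t
      calc t * q * t⁻¹ = (t * e₂ * t⁻¹) * (t * (e₂⁻¹ * q) * t⁻¹) := by group
        _ = q := by rw [fix_iff.1 ht, hs, mul_inv_cancel_left]
  have ab₂₃ : ∀ a ∈ Zc T 3, ∀ b ∈ Zc T 3, a * b = b * a := fun a ha b hb => by
    have := h.facts.zle ha
    rw [h.cent, mem_centralizer_iff] at this
    exact (this b hb).symm
  have hcc : ∀ g : T ⧸ W, g * c = c * g := by
    intro g
    induction g using QuotientGroup.induction_on with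
    | _ t =>
      rw [hc, ← QuotientGroup.mk_mul, ← QuotientGroup.mk_mul]
      refine mk_eq ?_ ?_
      · rw [fcr₂, f₂mul, hc₂, mul_one]
      · rw [fcr₃, f₃mul, two_fix hc₂ _ (comm_mem_succ h₃ t), hc₃]
        exact ab₂₃ _ (h23 (h12 h₁)) _ (h23 (comm_mem_succ h₃ t))
  have hc2 : c * c = 1 := by
    rw [hc, ← QuotientGroup.mk_mul, ← QuotientGroup.mk_one]
    refine mk_eq ?_ ?_
    · rw [fcr₂, hc₂, one₂]
    · rw [fcr₃, hc₃, one₂]
      exact h.facts.elem _ (h23 (h12 h₁))
  -- squares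
  have hsq₂ : ∀ t : T, ⁅t * t, e₂⁆ = 1 := fun t => by
    rw [f₂mul]
    exact h.facts.elem _ (h23 (h12 (comm_mem_succ h₂ t)))
  have hsq_one : ∀ t : T, (∀ q ∈ Zc T 2, q = ⁅t, e₃⁆ → t * q * t⁻¹ = q) →
      (QuotientGroup.mk t : T ⧸ W) * QuotientGroup.mk t = 1 := by
    intro t ht
    rw [← QuotientGroup.mk_mul, ← QuotientGroup.mk_one]
    refine mk_eq (by rw [hsq₂, one₂]) ?_
    rw [f₃mul, ht _ (comm_mem_succ h₃ t) rfl, one₂]
    exact h.facts.elem _ (h23 (comm_mem_succ h₃ t))
  -- the symmetry away from one coset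
  have hsplit : ∀ g : T ⧸ W, phi th (g * c) = phi th g ∨
      ∃ t : T, QuotientGroup.mk t = g ∧ ⁅t, e₂⁆ ≠ 1 ∧ ⁅t, e₃⁆ ∈ Zc T 1 := by
    intro g
    induction g using QuotientGroup.induction_on with
    | _ t =>
      by_cases ht2 : ⁅t, e₂⁆ = 1
      · refine Or.inl ?_
        have hzero : ∀ u : T, ⁅u, e₂⁆ = 1 → phi th (QuotientGroup.mk u) = 0 := by
          intro u hu
          by_cases hu1 : (QuotientGroup.mk u : T ⧸ W) = 1
          · rw [hu1, phi_one h th]
          refine phi_fixed_zero h th (hsq_one u fun q hq _ => two_fix hu q hq) fun x hx hxfix => ?_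
          by_contra hx2
          apply hu1
          rw [QuotientGroup.eq_one_iff]
          refine h.mem_W h₂ h₂' h₃ h₃' hu (fix_iff.2 ?_)
          have hs := two_fix hu _ (h.step_rep (k := 2) (by omega) hx hx2 h₃ h₃')
          calc u * e₃ * u⁻¹ = (u * x * u⁻¹) * (u * (x⁻¹ * e₃) * u⁻¹) := by group
            _ = e₃ := by rw [hxfix, hs, mul_inv_cancel_left]
        rw [hc, ← QuotientGroup.mk_mul, hzero t ht2, hzero (t * tc) (by rw [fcr₂, ht2])]
      · by_cases ht3 : ⁅t, e₃⁆ ∈ Zc T 1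
        · exact Or.inr ⟨t, rfl, ht2, ht3⟩
        · refine Or.inl ?_
          -- here `t` squares to `c`
          have hq := comm_mem_succ h₃ t
          have htq : ⁅t, ⁅t, e₃⁆⁆ = e₁ := by
            refine h.one_unique (comm_mem_succ hq t) (fun he => ?_) h₁ h1ne
            apply ht2
            rw [fix_iff]
            have hfx := fix_iff.1 he
            have hs := Hyp.central (h.step_rep (k := 1) (by omega) hq ht3 h₂ h₂') t
            calc t * e₂ * t⁻¹ = (t * ⁅t, e₃⁆ * t⁻¹) * (t * (⁅t, e₃⁆⁻¹ * e₂) * t⁻¹) := by group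
              _ = e₂ := by rw [hfx, hs, mul_inv_cancel_left]
          have hsc : (QuotientGroup.mk t : T ⧸ W) * QuotientGroup.mk t = c := by
            rw [hc, ← QuotientGroup.mk_mul]
            refine mk_eq (by rw [hsq₂, hc₂]) ?_
            rw [f₃mul, hc₃, show t * ⁅t, e₃⁆ * t⁻¹ = ⁅t, ⁅t, e₃⁆⁆ * ⁅t, e₃⁆ by
              rw [commutatorElement_def t ⁅t, e₃⁆, inv_mul_cancel_right], htq, mul_assoc,
              h.facts.elem _ (h23 hq), mul_one]
          have hinv : (QuotientGroup.mk t : T ⧸ W)⁻¹ = QuotientGroup.mk t * c := by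
            refine inv_eq_of_mul_eq_one_right ?_
            rw [← mul_assoc, hsc, hc2]
          rw [← hinv, phi_inv h th]
  -- the total is zero
  have htot : ∑ g : T ⧸ W, phi th g = 0 := by
    have h0 := hrad _ (th.point_mem 1)
    rw [form_expand h th hz (th.point_mem 1)] at h0
    rw [← h0]
    refine Finset.sum_congr rfl fun g _ => ?_
    rw [hθ, Pi.one_apply, one_mul, form_point h th g 1, mul_one, phi_inv h th]
  refine ⟨c, hc1, hc2, hcc, ?_⟩
  by_contra hne
  push Not at hne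
  obtain ⟨g₀, hg₀⟩ := hne
  obtain ⟨t₀, ht₀, ht₀2, ht₀3⟩ := (hsplit g₀).resolve_left hg₀
  have hone : ∀ x ∈ Zc T 1, x = 1 ∨ x = e₁ := fun x hx => by
    by_cases hx1 : x = 1
    · exact Or.inl hx1
    · exact Or.inr (h.one_unique hx hx1 h₁ h1ne)
  have hrest : ∀ g, g ≠ g₀ → g ≠ g₀ * c → phi th (g * c) = phi th g := by
    intro g hga hgb
    refine (hsplit g).resolve_right ?_
    rintro ⟨t, ht, ht2, ht3⟩
    have e2 : ⁅t, e₂⁆ = ⁅t₀, e₂⁆ :=
      h.one_unique (comm_mem_succ h₂ t) ht2 (comm_mem_succ h₂ t₀) ht₀2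
    by_cases he : ⁅t, e₃⁆ = ⁅t₀, e₃⁆
    · exact hga (ht ▸ ht₀ ▸ mk_eq e2 he)
    · refine hgb ?_
      rw [← ht, ← ht₀, hc, ← QuotientGroup.mk_mul]
      refine mk_eq (by rw [fcr₂, e2]) ?_
      rw [fcr₃]
      rcases hone _ ht3 with ha | ha <;> rcases hone _ ht₀3 with hb | hb
      · exact absurd (ha.trans hb.symm) he
      · rw [ha, hb]; exact (h.facts.elem _ (h23 (h12 h₁))).symm
      · rw [ha, hb]; exact (mul_one e₁).symm
      · exact absurd (ha.trans hb.symm) he
  have hne' : g₀ ≠ g₀ * c := fun he => hc1 (by simpa using he)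
  rw [← Finset.sum_erase_add _ _ (Finset.mem_univ g₀)] at htot
  have hm : g₀ * c ∈ Finset.univ.erase g₀ := Finset.mem_erase.2 ⟨hne'.symm, Finset.mem_univ _⟩
  rw [← Finset.sum_erase_add _ _ hm] at htot
  have hz0 : ∑ g ∈ (Finset.univ.erase g₀).erase (g₀ * c), phi th g = 0 := by
    refine Finset.sum_involution (fun g _ => g * c) ?_ ?_ ?_ ?_
    · intro g hg
      obtain ⟨hgb, hga⟩ := Finset.mem_erase.1 hg
      rw [hrest g (Finset.ne_of_mem_erase hga) hgb]
      exact CharTwo.add_self_eq_zero _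
    · intro g _ _ he
      exact hc1 (by simpa using he)
    · intro g hg
      obtain ⟨hgb, hga⟩ := Finset.mem_erase.1 hg
      refine Finset.mem_erase.2 ⟨fun he => Finset.ne_of_mem_erase hga (mul_right_cancel he), ?_⟩
      refine Finset.mem_erase.2 ⟨fun he => hgb ?_, Finset.mem_univ _⟩
      rw [← he, mul_assoc, hc2, mul_one]
    · intro g _
      rw [mul_assoc, hc2, mul_one]
  rw [hz0, zero_add] at htot
  exact hg₀ (eq_of_add_two _ _ htot)

set_option maxHeartbeats 1000000 in
/-- The socle is never in the radical. -/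
theorem no_radical (h : Hyp W) (th : Theta W) {z : T} (hz : z ∈ W) (hθ : th.θ z = 1)
    (hrad : ∀ y ∈ W, form z y = 0) : False := by
  haveI : Fact (Nat.Prime 2) := ⟨Nat.prime_two⟩
  haveI : Fintype (T ⧸ W) := Fintype.ofFinite _
  obtain ⟨c, hc1, hc2, hcc, hphi⟩ := exists_sym h th hz hθ hrad
  have hzl := h.facts.zle
  have h23 : Zc T 2 ≤ Zc T 3 := Subgroup.upperCentralSeries_mono T (by omega)
  have h32 : Zc T 2 ≤ W := h23.trans hzl
  -- the radical
  have hrad' : ∀ x ∈ W, (∀ g, th.θ x (g * c) = th.θ x g) → ∀ y ∈ W, form x y = 0 := by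
    intro x hx hinv y hy
    rw [form_expand h th hx hy]
    refine Finset.sum_involution (fun g _ => g * c) ?_ ?_ (fun g _ => Finset.mem_univ _) ?_
    · intro g _
      have : form (th.point (g * c)) y = form (th.point g) y := by
        rw [form_symm h (th.point_mem _) hy, form_symm h (th.point_mem _) hy, form_expand h th hy (th.point_mem _),
          form_expand h th hy (th.point_mem g)]
        refine Finset.sum_congr rfl fun k _ => ?_
        rw [form_point h th k, form_point h th k, ← mul_assoc, hphi]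
      rw [hinv g, this]
      exact CharTwo.add_self_eq_zero _
    · intro g _ _ he
      exact hc1 (by simpa using he)
    · intro g _
      rw [mul_assoc, hc2, mul_one]
  -- the quotient by the second term
  let N : Subgroup W := (Zc T 2).subgroupOf W
  haveI : N.Normal := inferInstanceAs ((Zc T 2).subgroupOf W).Normal
  obtain ⟨e₃, h₃, h₃'⟩ := h.exists_step (k := 2) (by omega)
  let mk' : W →* W ⧸ N := QuotientGroup.mk' N
  have hmk : ∀ a : W, mk' a = 1 ↔ (a : T) ∈ Zc T 2 := fun a =>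
    (QuotientGroup.eq_one_iff a).trans mem_subgroupOf
  set ζ : W ⧸ N := mk' ⟨e₃, hzl h₃⟩ with hζdef
  have hζ1 : ζ ≠ 1 := fun he => h₃' ((hmk _).1 he)
  have hto : ∀ a : W, (a : T) ∈ Zc T 3 → mk' a = 1 ∨ mk' a = ζ := by
    intro a ha
    by_cases ha2 : (a : T) ∈ Zc T 2
    · exact Or.inl ((hmk a).2 ha2)
    · refine Or.inr (Eq.symm ?_)
      rw [hζdef, ← inv_mul_eq_one, ← map_inv, ← map_mul, hmk]
      exact h.step_rep (k := 2) (by omega) h₃ h₃' ha ha2
  have hζ2 : ζ * ζ = 1 := by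
    rw [hζdef, ← map_mul, hmk]
    exact h.sq_mem (k := 2) (by omega) h₃
  have hsqX : ∀ x : W ⧸ N, x * x = 1 ∨ x * x = ζ := by
    intro x
    obtain ⟨a, rfl⟩ := QuotientGroup.mk'_surjective N x
    rw [← map_mul]
    exact hto _ (h.facts.sq _ a.2)
  have hcommX : ∀ x y : W ⧸ N, ⁅x, y⁆ = 1 ∨ ⁅x, y⁆ = ζ := by
    intro x y
    obtain ⟨a, rfl⟩ := QuotientGroup.mk'_surjective N x
    obtain ⟨b, rfl⟩ := QuotientGroup.mk'_surjective N y
    have e : ⁅mk' a, mk' b⁆ = mk' ⁅a, b⁆ := by
      simp only [commutatorElement_def, map_mul, map_inv]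
    rw [e]
    exact hto _ (h.facts.comm _ a.2 _ b.2)
  have hζc : ∀ x : W ⧸ N, ζ * x = x * ζ := by
    intro x
    obtain ⟨a, rfl⟩ := QuotientGroup.mk'_surjective N x
    rw [hζdef, ← map_mul, ← map_mul]
    congr 1
    apply Subtype.ext
    have ha : (a : T) ∈ Subgroup.centralizer (Zc T 3 : Set T) :=
      (congrArg (fun S : Subgroup T => (a : T) ∈ S) h.cent).mp a.2
    exact mem_centralizer_iff.1 ha e₃ h₃
  -- the central subgroup coming from the radical
  let R : Subgroup (W ⧸ N) :=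
    { carrier := {x | ∀ y, ⁅x, y⁆ = 1}
      one_mem' := fun y => commutatorElement_one_left y
      mul_mem' := fun {a b} ha hb y => by rw [comm_mul_left, hb y, ha y]; group
      inv_mem' := fun {a} ha y => by
        have hh := comm_mul_left a⁻¹ a y
        rw [inv_mul_cancel, commutatorElement_one_left, ha y] at hh
        simpa using hh.symm }
  have hRcard : 32 ≤ Nat.card R := by
    let Q := Quotient (QuotientGroup.leftRel (Subgroup.zpowers c))
    have hQ : Nat.card ((T ⧸ W) ⧸ Subgroup.zpowers c) = 4 := by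
      have h1 := (Subgroup.zpowers c).card_mul_index
      rw [Nat.card_zpowers, orderOf_eq_prime (by rw [pow_two]; exact hc2) hc1, ← Subgroup.index_eq_card,
        h.facts.idx] at h1
      rw [← Subgroup.index_eq_card]
      omega
    let lf : ((T ⧸ W) ⧸ Subgroup.zpowers c → ZMod 2) → (T ⧸ W → ZMod 2) :=
      fun f g => f (QuotientGroup.mk g)
    let ρ : ((T ⧸ W) ⧸ Subgroup.zpowers c → ZMod 2) × Bool → R := fun fb =>
      ⟨mk' ⟨th.lift (lf fb.1), th.lift_mem _⟩ * (if fb.2 then ζ else 1), by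
        have hb : (if fb.2 then ζ else 1) ∈ R := by
          split_ifs
          · intro y
            rw [commutatorElement_eq_one_iff_mul_comm]
            exact hζc y
          · exact one_mem R
        refine mul_mem ?_ hb
        intro y
        obtain ⟨b, rfl⟩ := QuotientGroup.mk'_surjective N y
        have e : ∀ a : W, ⁅mk' a, mk' b⁆ = mk' ⁅a, b⁆ := fun a => by
          simp only [commutatorElement_def, map_mul, map_inv]
        rw [e, hmk]
        have hf := hrad' _ (th.lift_mem (lf fb.1)) (fun g => by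
          rw [th.θ_lift]
          simp only [lf]
          refine congrArg fb.1 ?_
          refine (QuotientGroup.eq (s := Subgroup.zpowers c)).2 ?_
          rw [mul_inv_rev, mul_assoc, inv_mul_cancel, mul_one]
          exact inv_mem (mem_zpowers c)) _ b.2
        unfold form at hf
        by_contra hne
        rw [if_neg (by exact hne)] at hf
        exact one_ne_zero hf⟩
    have hinj : Function.Injective ρ := by
      rintro ⟨f, b⟩ ⟨f', b'⟩ he
      have he' := congrArg Subtype.val he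
      simp only [ρ] at he'
      have hθb : ∀ bb : Bool, ∃ d : W, (d : T) ∈ Zc T 3 ∧ mk' d = (if bb then ζ else 1) := by
        intro bb
        cases bb
        · exact ⟨1, one_mem _, map_one _⟩
        · exact ⟨⟨e₃, hzl h₃⟩, h₃, rfl⟩
      obtain ⟨d, hd, hde⟩ := hθb b
      obtain ⟨d', hd', hde'⟩ := hθb b'
      rw [← hde, ← hde', ← map_mul, ← map_mul, ← inv_mul_eq_one, ← map_inv, ← map_mul, hmk] at he'
      have hff : f = f' := by
        have h0 := (th.ker' _ (mul_mem (inv_mem (mul_mem (th.lift_mem _) d.2)) (mul_mem (th.lift_mem _) d'.2))).2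
          (h23 he')
        have hi := th.mul' _ (inv_mem (mul_mem (th.lift_mem (lf f)) d.2)) _ (mul_mem (th.lift_mem (lf f)) d.2)
        rw [inv_mul_cancel, th.map_one'] at hi
        rw [th.mul' _ (inv_mem (mul_mem (th.lift_mem (lf f)) d.2)) _ (mul_mem (th.lift_mem (lf f')) d'.2)] at h0
        have heq : th.θ (th.lift (lf f) * d) = th.θ (th.lift (lf f') * d') := by
          funext g
          have a1 := congrFun hi g
          have a2 := congrFun h0 g
          simp only [Pi.add_apply, Pi.zero_apply] at a1 a2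
          revert a1 a2
          generalize th.θ (th.lift (lf f) * ↑d)⁻¹ g = u
          generalize th.θ (th.lift (lf f) * ↑d) g = v
          generalize th.θ (th.lift (lf f') * ↑d') g = w
          revert u v w
          decide
        rw [th.mul' _ (th.lift_mem _) _ d.2, th.mul' _ (th.lift_mem _) _ d'.2, (th.ker' _ d.2).2 hd,
          (th.ker' _ d'.2).2 hd', add_zero, add_zero, th.θ_lift, th.θ_lift] at heq
        funext q
        induction q using QuotientGroup.induction_on with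
        | _ g => exact congrFun heq g
      subst hff
      refine Prod.ext rfl ?_
      have he'' := congrArg Subtype.val he
      simp only [ρ] at he''
      have := mul_left_cancel he''
      cases b <;> cases b'
      · rfl
      · exact absurd this.symm (by simpa using hζ1)
      · exact absurd this (by simpa using hζ1)
      · rfl
    have := Nat.card_le_card_of_injective ρ hinj
    rw [Nat.card_prod, Nat.card_fun, hQ, Nat.card_zmod, Nat.card_eq_fintype_card (α := Bool),
      Fintype.card_bool] at this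
    omega
  have hRc : ∀ x ∈ R, ∀ y, x * y = y * x := fun x hx y => commutatorElement_eq_one_iff_mul_comm.1 (hx y)
  -- three central involutions avoiding `ζ`
  let sqh : R →* W ⧸ N :=
    { toFun := fun x => (x : W ⧸ N) * x
      map_one' := one_mul 1
      map_mul' := fun a b => by
        rw [Subgroup.coe_mul, mul_assoc, ← mul_assoc (b : W ⧸ N), hRc _ b.2 a, mul_assoc, ← mul_assoc] }
  have hK : 16 ≤ Nat.card sqh.ker := by
    have h1 := sqh.ker.card_mul_index
    rw [Subgroup.index_ker] at h1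
    have h2 : Nat.card sqh.range ≤ 2 := by
      have hs : (sqh.range : Set (W ⧸ N)) ⊆ {1, ζ} := by
        rintro _ ⟨a, rfl⟩
        exact hsqX a
      exact (Nat.card_mono (Set.toFinite _) hs).trans (by
        rw [Nat.card_coe_set_eq]
        exact (Set.ncard_insert_le _ _).trans (by rw [Set.ncard_singleton]))
    have : Nat.card sqh.ker * Nat.card sqh.range ≤ Nat.card sqh.ker * 2 := Nat.mul_le_mul le_rfl h2
    omega
  let K : Subgroup (W ⧸ N) := sqh.ker.map R.subtype
  have hKcard : 16 ≤ Nat.card K := (Subgroup.card_map_of_injective R.subtype_injective).symm ▸ hK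
  have hKmem : ∀ x ∈ K, x * x = 1 ∧ ∀ y, x * y = y * x := by
    rintro _ ⟨a, ha, rfl⟩
    exact ⟨ha, hRc _ a.2⟩
  have step : ∀ A : Subgroup (W ⧸ N), (∀ x ∈ A, x * x = 1) → (∀ x ∈ A, ∀ y, x * y = y * x) → ζ ∉ A →
      Nat.card A ≤ 4 → ∃ A' : Subgroup (W ⧸ N), (∀ x ∈ A', x * x = 1) ∧ (∀ x ∈ A', ∀ y, x * y = y * x) ∧
        ζ ∉ A' ∧ Nat.card A' = 2 * Nat.card A := by
    intro A hA2 hAc hζA hA4
    obtain ⟨a, haK, haA, haζ⟩ : ∃ a ∈ K, a ∉ A ∧ ζ * a ∉ A := by
      by_contra hall
      push Not at hall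
      have hsub : (K : Set (W ⧸ N)) ⊆ (A : Set (W ⧸ N)) ∪ (fun x => ζ * x) '' (A : Set (W ⧸ N)) := by
        intro x hx
        by_cases hxA : x ∈ A
        · exact Or.inl hxA
        · exact Or.inr ⟨ζ * x, hall x hx hxA, show ζ * (ζ * x) = x by rw [← mul_assoc, hζ2, one_mul]⟩
      have := Nat.card_mono (Set.toFinite _) hsub
      rw [Nat.card_coe_set_eq, Nat.card_coe_set_eq] at this
      have hu := Set.ncard_union_le (A : Set (W ⧸ N)) ((fun x => ζ * x) '' (A : Set (W ⧸ N)))
      have hi := Set.ncard_image_le (s := (A : Set (W ⧸ N))) (f := fun x => ζ * x) (Set.toFinite _)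
      have e1 : (K : Set (W ⧸ N)).ncard = Nat.card K := (Nat.card_coe_set_eq _).symm
      have e2 : (A : Set (W ⧸ N)).ncard = Nat.card A := (Nat.card_coe_set_eq _).symm
      omega
    obtain ⟨A', hle, -, hA', hζA', hc', hrep⟩ :=
      elem_insert hζ2 hA2 hζA (fun x _ => hζc x) (hKmem a haK).1 (fun x _ => (hKmem a haK).2 x) haA haζ
    refine ⟨A', hA', fun x hx y => ?_, hζA', hc'⟩
    obtain ⟨p, hp, rfl | rfl⟩ := hrep x hx
    · exact hAc _ hp y
    · rw [mul_assoc, (hKmem a haK).2 y, ← mul_assoc, hAc _ hp y, mul_assoc]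
  obtain ⟨A₁, a1, b1, c1, d1⟩ := step ⊥ (by simp) (by simp) (by simpa using hζ1) (by simp)
  rw [Subgroup.card_bot] at d1
  obtain ⟨A₂, a2, b2, c2, d2⟩ := step A₁ a1 b1 c1 (by omega)
  obtain ⟨A₃, a3, b3, c3, d3⟩ := step A₂ a2 b2 c2 (by omega)
  have hX : Nat.card (W ⧸ N) = 2 ^ 9 := by
    have h1 := N.card_mul_index
    rw [Nat.card_congr (Subgroup.subgroupOfEquivOfLe h32).toEquiv, h.cardZ (by omega), h.facts.cardW] at h1
    rw [← Subgroup.index_eq_card]
    omega
  have hC3 : Subgroup.centralizer (A₃ : Set (W ⧸ N)) = ⊤ := eq_top_iff.2 fun x _ => by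
    rw [mem_centralizer_iff]
    exact fun y hy => b3 y hy x
  have hc3card : Nat.card (Subgroup.centralizer (A₃ : Set (W ⧸ N))) = 2 ^ 9 := by
    rw [hC3, Subgroup.card_top, hX]
  obtain ⟨A₄, a4, c4, d4, e4⟩ := exists_extend hζ2 hζc hcommX hsqX a3 c3 (by omega)
  obtain ⟨A₅, a5, c5, d5, -⟩ := exists_extend hζ2 hζc hcommX hsqX a4 c4 (by omega)
  have hidx : (A₅.comap mk').index ≤ 16 := by
    rw [Subgroup.index_comap_of_surjective _ (QuotientGroup.mk'_surjective N)]
    have := A₅.card_mul_index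
    rw [hX, show Nat.card A₅ = 32 by omega] at this
    omega
  have hfr : (⟨e₃, hzl h₃⟩ : W) ∈ frattini W := by
    have := h₃
    rw [← h.facts.fratt] at this
    obtain ⟨m, hm, he⟩ := this
    exact (show m = ⟨e₃, hzl h₃⟩ from Subtype.ext he) ▸ hm
  exact c5 (h.sub _ hidx hfr)

/-- The centre of `W` is the third term. -/
theorem center_eq (h : Hyp W) : (Subgroup.center W).map W.subtype = Zc T 3 := by
  obtain ⟨⟨th⟩, -⟩ := h.core
  refine le_antisymm ?_ fun x hx => ?_
  · by_contra hne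
    haveI : ((Subgroup.center W).map W.subtype).Normal := inferInstance
    have hge := (normal_le_or_ge h.isP h.z4 h.big16 ((Subgroup.center W).map W.subtype)
      (show 3 < 4 by omega)).resolve_left hne
    obtain ⟨z, hz4, hz3⟩ := h.exists_step (show 3 < 4 by omega)
    obtain ⟨zw, hzw, rfl⟩ := hge hz4
    have hθ : th.θ (zw : T) = 1 := by
      have hne0 : th.θ (zw : T) ≠ 0 := fun he => hz3 ((th.ker' _ zw.2).1 he)
      have hconst : ∀ g, th.θ (zw : T) g = th.θ (zw : T) 1 := by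
        intro g
        induction g using QuotientGroup.induction_on with
        | _ u =>
          have hd : ⁅u⁻¹, (zw : T)⁆ ∈ Zc T 3 := comm_mem_succ hz4 u⁻¹
          have hcw : u⁻¹ * (zw : T) * u⁻¹⁻¹ ∈ W := Subgroup.Normal.conj_mem (H := W) inferInstance _ zw.2 _
          have he : th.θ (u⁻¹ * (zw : T) * u⁻¹⁻¹) = th.θ (zw : T) := by
            rw [show u⁻¹ * (zw : T) * u⁻¹⁻¹ = ⁅u⁻¹, (zw : T)⁆ * zw by
              rw [commutatorElement_def, inv_mul_cancel_right],
              th.mul' _ (h.facts.zle hd) _ zw.2, (th.ker' _ (h.facts.zle hd)).2 hd, zero_add]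
          have := th.equiv' u⁻¹ _ zw.2 1
          rw [he, mul_one, QuotientGroup.mk_inv, inv_inv] at this
          exact this.symm
      funext g
      rw [hconst g, Pi.one_apply]
      by_contra hne1
      refine hne0 (funext fun k => ?_)
      rw [hconst k, Pi.zero_apply]
      exact (show ∀ a : ZMod 2, a ≠ 1 → a = 0 by decide) _ hne1
    refine no_radical h th zw.2 hθ fun y hy => ?_
    have := Subgroup.mem_center_iff.1 hzw ⟨y, hy⟩
    have hcomm : ⁅(zw : T), y⁆ = 1 :=
      commutatorElement_eq_one_iff_mul_comm.2 (congrArg Subtype.val this).symm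
    unfold form
    rw [hcomm, if_pos (one_mem _)]
  · refine ⟨⟨x, h.facts.zle hx⟩, ?_, rfl⟩
    rw [SetLike.mem_coe, Subgroup.mem_center_iff]
    intro w
    have := w.2
    have hw : (w : T) ∈ Subgroup.centralizer (Zc T 3 : Set T) :=
      (congrArg (fun S : Subgroup T => (w : T) ∈ S) h.cent).mp w.2
    exact Subtype.ext (mem_centralizer_iff.1 hw x hx).symm

end CfsgLib.RuType
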