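import Mathlib
import Cfsg.Agent.RuType.Center

/-!
Automorphisms of odd order of a 2-group of Rudvalis type are trivial.
-/

set_option autoImplicit false

namespace CfsgLib.RuType

open Subgroup
open scoped commutatorElement

variable {T : Type*} [Group T] [Finite T] {W : Subgroup T}

theorem aut_pow_fix_mul (α : MulAut T) {e y : T} (hy : α y = y) (he : α e = e * y) (n : ℕ) :
    (α ^ n) e = e * y ^ n := by
  induction n with
  | zero => simp
  | succ n ih => rw [pow_succ', MulAut.mul_apply, ih, map_mul, map_pow, hy, he, mul_assoc, ← pow_succ']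

theorem eq_one_of_odd_pow {x : T} (hT : IsPGroup 2 T) {m : ℕ} (hm : Odd m) (hx : x ^ m = 1) : x = 1 := by
  obtain ⟨k, hk⟩ := hT x
  have hg := pow_gcd_eq_one.2 ⟨hk, hx⟩
  have : Nat.gcd (2 ^ k) m = 1 :=
    Nat.Coprime.pow_left k ((Nat.prime_two.coprime_iff_not_dvd).2 hm.not_two_dvd_nat)
  rwa [this, pow_one] at hg

theorem map_Zc (α : MulAut T) {k : ℕ} {x : T} (hx : x ∈ Zc T k) : α x ∈ Zc T k := by
  have h := Subgroup.Characteristic.fixed (H := Zc T k) inferInstance α
  rw [← h] at hx
  exact hx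

theorem Hyp.map_W (h : Hyp W) (α : MulAut T) {x : T} (hx : x ∈ W) : α x ∈ W := by
  rw [h.cent, mem_centralizer_iff] at hx ⊢
  intro y hy
  have hy' : α⁻¹ y ∈ Zc T 3 := map_Zc α⁻¹ hy
  have h' := congrArg α (hx _ hy')
  rwa [map_mul, map_mul, MulAut.apply_inv_self] at h'

theorem zmod_two_cases : ∀ a : ZMod 2, a = 0 ∨ a = 1 := by decide

/-- A normal subgroup of `T` inside `W`, containing the third term and an element of odd weight, is `W`. -/
theorem eq_W_of_odd (h : Hyp W) [W.Normal] (th : Theta W) [Fintype (T ⧸ W)] (N : Subgroup T) (hN : N.Normal)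
    (hle : N ≤ W) (hZ : Zc T 3 ≤ N) {y : T} (hy : y ∈ N) (hodd : ∑ g : T ⧸ W, th.θ y g = 1) : N = W := by
  haveI : Fact (Nat.Prime 2) := ⟨Nat.prime_two⟩
  classical
  by_contra hne
  obtain ⟨M, hM⟩ := ({M : Subgroup T | M.Normal ∧ N ≤ M ∧ M < W}).toFinite.exists_maximal
    ⟨N, hN, le_rfl, lt_of_le_of_ne hle hne⟩
  haveI : M.Normal := hM.prop.1
  have hWn : W.Normal := inferInstance
  haveI : (W.map (QuotientGroup.mk' M)).Normal := hWn.map _ (QuotientGroup.mk'_surjective M)
  have hWne : W.map (QuotientGroup.mk' M) ≠ ⊥ := fun he => hM.prop.2.2.not_ge fun x hx => by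
    have hm : QuotientGroup.mk' M x ∈ W.map (QuotientGroup.mk' M) := mem_map_of_mem _ hx
    rw [he, mem_bot] at hm
    exact (QuotientGroup.eq_one_iff x).1 hm
  obtain ⟨c, hc, hc1⟩ := (Subgroup.bot_or_exists_ne_one _).resolve_left
    (CfsgLib.PReduced.inf_center_ne_bot (h.isP.to_quotient M) hWne)
  obtain ⟨hcW, hcZ⟩ := mem_inf.1 hc
  obtain ⟨w, hw, rfl⟩ := hcW
  have hwM : w ∉ M := fun hh => hc1 ((QuotientGroup.eq_one_iff w).2 hh)
  have hcomm : ∀ t : T, ⁅t, w⁆ ∈ M := by
    intro t
    rw [← QuotientGroup.eq_one_iff, commutatorElement_def]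
    have hc' := mem_center_iff.1 hcZ (QuotientGroup.mk' M t)
    simp only [QuotientGroup.mk'_apply] at hc'
    simp only [QuotientGroup.mk_mul, QuotientGroup.mk_inv, hc']
    group
  have hw2 : w * w ∈ M := hM.prop.2.1 (hZ (h.facts.sq w hw))
  -- `M ∪ M w` is all of `W`
  have hcover : ∀ x ∈ W, x ∈ M ∨ x * w ∈ M := by
    let M' : Subgroup T :=
      { carrier := {x | x ∈ W ∧ (x ∈ M ∨ x * w ∈ M)}
        one_mem' := ⟨one_mem _, Or.inl (one_mem M)⟩
        mul_mem' := by
          rintro a b ⟨ha, ha'⟩ ⟨hb, hb'⟩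
          refine ⟨mul_mem ha hb, ?_⟩
          rcases ha' with ha' | ha' <;> rcases hb' with hb' | hb'
          · exact Or.inl (mul_mem ha' hb')
          · exact Or.inr (by rw [mul_assoc]; exact mul_mem ha' hb')
          · refine Or.inr ?_
            have : a * b * w = (a * w) * ((⁅w⁻¹, b⁆) * b) := by rw [commutatorElement_def]; group
            rw [this]
            refine mul_mem ha' (mul_mem ?_ hb')
            have hh := hM.prop.1.conj_mem _ (hcomm b) w⁻¹
            rw [show ⁅w⁻¹, b⁆ = w⁻¹ * ⁅b, w⁆ * w⁻¹⁻¹ by simp only [commutatorElement_def]; group]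
            exact hh
          · refine Or.inl ?_
            have : a * b = (a * w) * ((w * w)⁻¹ * ⁅w, b * w⁆ * (b * w)) * 1 := by
              simp only [commutatorElement_def]; group
            rw [this]
            refine mul_mem (mul_mem ha' (mul_mem (mul_mem (inv_mem hw2) ?_) hb')) (one_mem M)
            rw [← commutatorElement_inv]
            exact inv_mem (hcomm _)
        inv_mem' := by
          rintro a ⟨ha, ha' | ha'⟩
          · exact ⟨inv_mem ha, Or.inl (inv_mem ha')⟩
          · refine ⟨inv_mem ha, Or.inr ?_⟩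
            have : a⁻¹ * w = (⁅a⁻¹, w⁆) * (w * w) * (a * w)⁻¹ := by
              simp only [commutatorElement_def]; group
            rw [this]
            exact mul_mem (mul_mem (hcomm _) hw2) (inv_mem ha') }
    have hM'n : M'.Normal := ⟨fun x hx t => ⟨hWn.conj_mem x hx.1 t, by
      rcases hx.2 with hx' | hx'
      · exact Or.inl (hM.prop.1.conj_mem x hx' t)
      · refine Or.inr ?_
        have : t * x * t⁻¹ * w = (t * (x * w) * t⁻¹) * ⁅t, w⁻¹⁆ := by
          simp only [commutatorElement_def]; group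
        rw [this]
        refine mul_mem (hM.prop.1.conj_mem _ hx' t) ?_
        have hh := hM.prop.1.conj_mem _ (inv_mem (hcomm t)) w⁻¹
        rw [show ⁅t, w⁻¹⁆ = w⁻¹ * ⁅t, w⁆⁻¹ * w⁻¹⁻¹ by simp only [commutatorElement_def]; group]
        exact hh⟩⟩
    have hMM' : M ≤ M' := fun x hx => ⟨hM.prop.2.2.le hx, Or.inl hx⟩
    have hwM' : w ∈ M' := ⟨hw, Or.inr hw2⟩
    intro x hx
    by_contra hcon
    have hlt : M' < W := lt_of_le_of_ne (fun a ha => ha.1) fun he => hcon ((he ▸ hx : x ∈ M').2)
    exact hwM (hM.le_of_ge ⟨hM'n, hM.prop.2.1.trans hMM', hlt⟩ hMM' hwM')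
  let μ : T → ZMod 2 := fun x => if x ∈ M then 0 else 1
  have hμ : ∀ a ∈ W, ∀ b ∈ W, μ (a * b) = μ a + μ b := by
    intro a ha b hb
    have h1 : a ∈ M → (a * b ∈ M ↔ b ∈ M) := fun hh => M.mul_mem_cancel_left hh
    have h2 : b ∈ M → (a * b ∈ M ↔ a ∈ M) := fun hh => M.mul_mem_cancel_right hh
    have h3 : a ∉ M → b ∉ M → a * b ∈ M := fun hna hnb => by
      have h4 := (hcover a ha).resolve_left hna
      have h5 := (hcover b⁻¹ (inv_mem hb)).resolve_left fun hh => hnb (by simpa using inv_mem hh)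
      have := mul_mem h4 (inv_mem h5)
      simpa [mul_assoc] using this
    simp only [μ]
    split_ifs <;> simp_all [one_add_one_two]
  let L : (T ⧸ W → ZMod 2) →+ ZMod 2 :=
    { toFun := fun f => μ (th.lift f)
      map_zero' := if_pos (hM.prop.2.1 (hZ ((th.ker' _ (th.lift_mem _)).1 (th.θ_lift 0))))
      map_add' := fun f f' => by
        have hd := th.congr' (mul_mem (th.lift_mem f) (th.lift_mem f')) (th.lift_mem (f + f'))
          (by rw [th.mul' _ (th.lift_mem f) _ (th.lift_mem f'), th.θ_lift, th.θ_lift, th.θ_lift])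
        rw [← hμ _ (th.lift_mem f) _ (th.lift_mem f'),
          show th.lift (f + f') = th.lift f * th.lift f' * ((th.lift f * th.lift f')⁻¹ * th.lift (f + f')) by group,
          hμ _ (mul_mem (th.lift_mem f) (th.lift_mem f')) _ (h.facts.zle hd)]
        rw [show μ ((th.lift f * th.lift f')⁻¹ * th.lift (f + f')) = 0 from if_pos (hM.prop.2.1 (hZ hd)),
          add_zero] }
  have hμθ : ∀ x ∈ W, μ x = L (th.θ x) := by
    intro x hx
    have hd := th.congr' (th.lift_mem (th.θ x)) hx (th.θ_lift _)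
    change μ x = μ (th.lift (th.θ x))
    conv_lhs => rw [show x = th.lift (th.θ x) * ((th.lift (th.θ x))⁻¹ * x) by group]
    rw [hμ _ (th.lift_mem _) _ (h.facts.zle hd),
      show μ ((th.lift (th.θ x))⁻¹ * x) = 0 from if_pos (hM.prop.2.1 (hZ hd)), add_zero]
  have hconst : ∀ g : T ⧸ W, L (Pi.single g 1) = L (Pi.single 1 1) := by
    intro g
    induction g using QuotientGroup.induction_on with
    | _ u =>
      have e := th.conj_point u 1
      rw [mul_one, th.θ_point] at e
      rw [← e, ← hμθ _ (hWn.conj_mem _ (th.point_mem 1) u), ← th.θ_point 1, ← hμθ _ (th.point_mem 1)]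
      simp only [μ]
      have hcl : u * th.point 1 * u⁻¹ ∈ M ↔ th.point 1 ∈ M :=
        ⟨fun hh => by simpa [mul_assoc] using hM.prop.1.conj_mem _ hh u⁻¹,
          fun hh => hM.prop.1.conj_mem _ hh u⟩
      simp only [hcl]
  have hsum : ∀ f, L f = (∑ g : T ⧸ W, f g) * L (Pi.single 1 1) := by
    intro f
    conv_lhs => rw [← Finset.univ_sum_single f]
    rw [map_sum, Finset.sum_mul]
    refine Finset.sum_congr rfl fun g _ => ?_
    rcases zmod_two_cases (f g) with ha | ha <;> rw [ha]
    · rw [Pi.single_zero, map_zero, zero_mul]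
    · rw [one_mul, hconst g]
  have h0 := hμθ y (hle hy)
  rw [hsum, hodd, one_mul, show μ y = 0 from if_pos (hM.prop.2.1 hy)] at h0
  have h1 := hμθ w hw
  rw [hsum, ← h0, mul_zero, show μ w = 1 from if_neg hwM] at h1
  exact one_ne_zero h1

/-- Odd automorphisms are trivial. -/
theorem aut_odd_trivial (h : Hyp W) (α : MulAut T) {m : ℕ} (hm : Odd m) (hα : α ^ m = 1) : α = 1 := by
  classical
  haveI := h.wnormal
  haveI : Fintype (T ⧸ W) := Fintype.ofFinite _
  obtain ⟨⟨th⟩, -⟩ := h.core
  -- a fixed-point argument for translates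
  have key : ∀ {e y : T}, α y = y → α e = e * y → α e = e := by
    intro e y hy he
    have := aut_pow_fix_mul α hy he m
    rw [hα, MulAut.one_apply] at this
    have hy1 : y ^ m = 1 := by simpa using this.symm
    rw [he, eq_one_of_odd_pow h.isP hm hy1, mul_one]
  have hZfix : ∀ k ≤ 3, ∀ x ∈ Zc T k, α x = x := by
    intro k
    induction k with
    | zero =>
      intro _ x hx
      rw [Hyp.zero_mem.1 hx, map_one]
    | succ k ih =>
      intro hk x hx
      by_cases hx' : x ∈ Zc T k
      · exact ih (by omega) x hx'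
      · have hax' : α x ∉ Zc T k := fun hc => hx' (by simpa using map_Zc α⁻¹ hc)
        have hd := h.step_rep (k := k) (by omega) hx hx' (map_Zc α hx) hax'
        exact key (ih (by omega) _ hd) (by rw [mul_inv_cancel_left])
  have hTW : ∀ t : T, t⁻¹ * α t ∈ W := by
    intro t
    obtain ⟨e₂, h₂, h₂'⟩ := h.exists_step (k := 1) (by omega)
    obtain ⟨e₃, h₃, h₃'⟩ := h.exists_step (k := 2) (by omega)
    have he : ∀ {e : T} {k : ℕ}, k ≤ 2 → e ∈ Zc T (k + 1) → ⁅t, e⁆ = ⁅α t, e⁆ := by
      intro e k hk he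
      have h1 : α ⁅t, e⁆ = ⁅t, e⁆ := hZfix k (by omega) _ (comm_mem_succ he t)
      conv_lhs => rw [← h1]
      simp only [commutatorElement_def, map_mul, map_inv, hZfix (k + 1) (by omega) e he]
    exact h.pair_injective h₂ h₂' h₃ h₃' (he (k := 1) (by omega) h₂) (he (k := 2) le_rfl h₃)
  -- equivariance modulo the third term
  have hequ : ∀ (u : T), ∀ x ∈ W, th.θ (α (u * x * u⁻¹)) = th.θ (u * α x * u⁻¹) := by
    intro u x hx
    funext g
    have hax := h.map_W α hx
    have e : α (u * x * u⁻¹) = α u * α x * (α u)⁻¹ := by rw [map_mul, map_mul, map_inv]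
    rw [e, th.equiv' _ _ hax, th.equiv' _ _ hax,
      show (QuotientGroup.mk (α u) : T ⧸ W) = QuotientGroup.mk u from (QuotientGroup.eq.2 (hTW u)).symm]
  let F : Subgroup T :=
    { carrier := {x | x ∈ W ∧ th.θ (α x) = th.θ x}
      one_mem' := ⟨one_mem _, by rw [map_one]⟩
      mul_mem' := fun {a b} ha hb => ⟨mul_mem ha.1 hb.1, by
        rw [map_mul, th.mul' _ (h.map_W α ha.1) _ (h.map_W α hb.1), ha.2, hb.2, th.mul' _ ha.1 _ hb.1]⟩
      inv_mem' := fun {a} ha => ⟨inv_mem ha.1, by
        have h1 := th.mul' _ (inv_mem ha.1) _ ha.1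
        have h2 := th.mul' _ (inv_mem (h.map_W α ha.1)) _ (h.map_W α ha.1)
        rw [inv_mul_cancel, th.map_one'] at h1 h2
        rw [map_inv]
        funext g
        have a1 := congrFun h1 g
        have a2 := congrFun h2 g
        have a3 := congrFun ha.2 g
        simp only [Pi.add_apply, Pi.zero_apply] at a1 a2
        rw [eq_of_add_two _ _ a1.symm, eq_of_add_two _ _ a2.symm, a3]⟩ }
  have hFn : F.Normal := ⟨fun x hx u => ⟨(inferInstance : W.Normal).conj_mem x hx.1 u, by
    rw [hequ u x hx.1]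
    funext g
    rw [th.equiv' _ _ (h.map_W α hx.1), th.equiv' _ _ hx.1, hx.2]⟩⟩
  have hFZ : Zc T 3 ≤ F := fun x hx => ⟨h.facts.zle hx, by rw [hZfix 3 le_rfl x hx]⟩
  -- an element of odd weight fixed modulo the third term
  obtain ⟨y, hyF, hyodd⟩ : ∃ y ∈ F, ∑ g : T ⧸ W, th.θ y g = 1 := by
    let Ψ : (T ⧸ W → ZMod 2) → (T ⧸ W → ZMod 2) := fun f => th.θ (α (th.lift f))
    have hΨ : ∀ x ∈ W, Ψ (th.θ x) = th.θ (α x) := by
      intro x hx
      have hd := th.congr' (th.lift_mem (th.θ x)) hx (th.θ_lift _)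
      have : α x = α (th.lift (th.θ x)) * ((th.lift (th.θ x))⁻¹ * x) := by
        rw [← hZfix 3 le_rfl _ hd, ← map_mul, mul_inv_cancel_left]
      rw [this, th.mul' _ (h.map_W α (th.lift_mem _)) _ (h.facts.zle hd),
        (th.ker' _ (h.facts.zle hd)).2 hd, add_zero]
    -- weights are preserved
    have hwt : ∀ x ∈ W, ∑ g : T ⧸ W, th.θ (α x) g = (∑ g : T ⧸ W, th.θ x g) *
        ∑ g : T ⧸ W, th.θ (α (th.point 1)) g := by
      intro x hx
      let L : (T ⧸ W → ZMod 2) →+ ZMod 2 :=
        { toFun := fun f => ∑ g : T ⧸ W, Ψ f g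
          map_zero' := by
            rw [← th.map_one', hΨ 1 (one_mem _), map_one, th.map_one']
            simp
          map_add' := fun f f' => by
            rw [← Finset.sum_add_distrib]
            refine Finset.sum_congr rfl fun g _ => ?_
            rw [← th.θ_lift f, ← th.θ_lift f', ← th.mul' _ (th.lift_mem f) _ (th.lift_mem f'),
              hΨ _ (mul_mem (th.lift_mem f) (th.lift_mem f')), hΨ _ (th.lift_mem f), hΨ _ (th.lift_mem f'),
              map_mul, th.mul' _ (h.map_W α (th.lift_mem f)) _ (h.map_W α (th.lift_mem f')), Pi.add_apply] }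
      have hL : ∀ f, L f = (∑ g : T ⧸ W, f g) * L (Pi.single 1 1) := by
        intro f
        conv_lhs => rw [← Finset.univ_sum_single f]
        rw [map_sum, Finset.sum_mul]
        refine Finset.sum_congr rfl fun g _ => ?_
        rcases zmod_two_cases (f g) with ha | ha <;> rw [ha]
        · rw [Pi.single_zero, map_zero, zero_mul]
        · rw [one_mul]
          change ∑ k : T ⧸ W, Ψ (Pi.single g 1) k = ∑ k : T ⧸ W, Ψ (Pi.single 1 1) k
          induction g using QuotientGroup.induction_on with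
          | _ u =>
            have e := th.conj_point u 1
            rw [mul_one, th.θ_point] at e
            rw [← e, ← th.θ_point 1, hΨ _ ((inferInstance : W.Normal).conj_mem _ (th.point_mem 1) u),
              hΨ _ (th.point_mem 1), hequ u _ (th.point_mem 1)]
            simp only [th.equiv' u _ (h.map_W α (th.point_mem 1))]
            exact Equiv.sum_comp (Equiv.mulLeft (QuotientGroup.mk u : T ⧸ W)⁻¹)
              fun k => th.θ (α (th.point 1)) k
      have := hL (th.θ x)
      change ∑ g : T ⧸ W, Ψ (th.θ x) g = _ * ∑ g : T ⧸ W, Ψ (Pi.single 1 1) g at this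
      rwa [hΨ x hx, ← th.θ_point 1, hΨ _ (th.point_mem 1)] at this
    set ε := ∑ g : T ⧸ W, th.θ (α (th.point 1)) g with hε
    have hε1 : ε = 1 := by
      have h1 := hwt _ (h.map_W α⁻¹ (th.point_mem 1))
      rw [MulAut.apply_inv_self, th.θ_point, Finset.sum_pi_single'] at h1
      simp only [Finset.mem_univ, if_true] at h1
      rcases zmod_two_cases ε with ha | ha
      · rw [ha, mul_zero] at h1
        exact absurd h1 one_ne_zero
      · exact ha
    have hpowW : ∀ i : ℕ, (α ^ i) (th.point 1) ∈ W := fun i => h.map_W _ (th.point_mem 1)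
    have hwi : ∀ i : ℕ, ∑ g : T ⧸ W, th.θ ((α ^ i) (th.point 1)) g = 1 := by
      intro i
      induction i with
      | zero => simp [th.θ_point, Finset.sum_pi_single']
      | succ i ih =>
        rw [pow_succ', MulAut.mul_apply, hwt _ (hpowW i), ih, hε1, mul_one]
    set v : T ⧸ W → ZMod 2 := ∑ i ∈ Finset.range m, th.θ ((α ^ i) (th.point 1)) with hv
    refine ⟨th.lift v, ⟨th.lift_mem v, ?_⟩, ?_⟩
    · change Ψ v = _
      rw [th.θ_lift]
      have hadd : ∀ f f', Ψ (f + f') = Ψ f + Ψ f' := fun f f' => by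
        rw [← th.θ_lift f, ← th.θ_lift f', ← th.mul' _ (th.lift_mem f) _ (th.lift_mem f'),
          hΨ _ (mul_mem (th.lift_mem f) (th.lift_mem f')), hΨ _ (th.lift_mem f), hΨ _ (th.lift_mem f'),
          map_mul, th.mul' _ (h.map_W α (th.lift_mem f)) _ (h.map_W α (th.lift_mem f'))]
      let Ψh : (T ⧸ W → ZMod 2) →+ (T ⧸ W → ZMod 2) := AddMonoidHom.mk' Ψ hadd
      change Ψh v = v
      rw [hv, map_sum]
      have e : ∀ i, Ψh (th.θ ((α ^ i) (th.point 1))) = th.θ ((α ^ (i + 1)) (th.point 1)) := fun i => by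
        rw [pow_succ' α i, MulAut.mul_apply]
        exact hΨ _ (hpowW i)
      simp only [e]
      have h1 := Finset.sum_range_succ (fun i => th.θ ((α ^ i) (th.point 1))) m
      have h2 := Finset.sum_range_succ' (fun i => th.θ ((α ^ i) (th.point 1))) m
      rw [hα, ← pow_zero α] at h1
      exact add_right_cancel (h2.symm.trans h1)
    · rw [th.θ_lift, hv]
      simp only [Finset.sum_apply]
      rw [Finset.sum_comm]
      simp only [hwi, Finset.sum_const, Finset.card_range, nsmul_eq_mul, mul_one]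
      obtain ⟨k, rfl⟩ := hm
      push_cast
      rw [show (2 : ZMod 2) = 0 from rfl, zero_mul, zero_add]
  have hFW : F = W := eq_W_of_odd h th F hFn (fun x hx => hx.1) hFZ hyF hyodd
  have hWfix : ∀ x ∈ W, α x = x := by
    intro x hx
    have hxF : x ∈ F := hFW.symm ▸ hx
    have hd := th.congr' hx (h.map_W α hx) hxF.2.symm
    exact key (hZfix 3 le_rfl _ hd) (by rw [mul_inv_cancel_left])
  refine MulEquiv.ext fun t => ?_
  exact key (hWfix _ (hTW t)) (by rw [mul_inv_cancel_left])

end CfsgLib.RuType
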