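import Mathlib
import Cfsg.Agent.RuType.Center

/-!
In a 2-group of Rudvalis type the subgroup `W` is the only subgroup with its structure.
-/

set_option autoImplicit false

namespace CfsgLib.RuType

open Subgroup
open scoped commutatorElement

variable {T : Type*} [Group T] [Finite T] {W : Subgroup T}

theorem zmod_add_self : ∀ a : ZMod 2, a + a = 0 := by decide

theorem zmod_shift : ∀ a b c d : ZMod 2, (a + b) + (c + d) = 0 → a + b = c + d := by decide

theorem zmod_sq_case : ∀ a b d : ZMod 2, a + b = b + d → a = d := by decide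

theorem zmod_sec : ∀ a b c d : ZMod 2, a + b = c + d → c + a = d + b := by decide

theorem zmod_norm : ∀ a b c d : ZMod 2, d + b = c + a → a + b + c + d = 0 := by decide

theorem zmod_norm_point : ∀ a b c d : ZMod 2, a + c + (b + d) + (c + a) + (d + b) = 0 := by decide

theorem zmod_split : ∀ a b : ZMod 2, a + (a + b) = b := by decide

/-- The number of functions invariant under a fixed-point free involution of an eight element set. -/
theorem card_invariant {Γ : Type*} [Group Γ] [Finite Γ] (h8 : Nat.card Γ = 8) {c : Γ} (hc1 : c ≠ 1)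
    (hc : c * c = 1) : Nat.card {f : Γ → ZMod 2 // ∀ g, f (c * g) = f g} ≤ 16 := by
  let R := QuotientGroup.rightRel (Subgroup.zpowers c)
  have hQ : Nat.card (Quotient R) = 4 := by
    rw [Nat.card_congr (QuotientGroup.quotientRightRelEquivQuotientLeftRel _), ← Subgroup.index_eq_card]
    have h1 := (Subgroup.zpowers c).card_mul_index
    rw [Nat.card_zpowers, orderOf_eq_prime (by rw [pow_two]; exact hc) hc1, h8] at h1
    omega
  have hinj : Function.Injective fun (f : {f : Γ → ZMod 2 // ∀ g, f (c * g) = f g}) (q : Quotient R) => f.1 q.out := by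
    intro f f' he
    refine Subtype.ext (funext fun g => ?_)
    have hrel : R (Quotient.mk R g).out g := Quotient.mk_out g
    rw [QuotientGroup.rightRel_apply] at hrel
    obtain ⟨i, hi⟩ := Subgroup.mem_zpowers_iff.1 hrel
    have he' := congrFun he (Quotient.mk R g)
    set k := (Quotient.mk R g).out
    have hg : g = c ^ i * k := by rw [hi]; group
    have hpow : c ^ i = 1 ∨ c ^ i = c := by
      rcases Int.even_or_odd i with ⟨n, hn⟩ | ⟨n, hn⟩
      · exact Or.inl (by rw [hn, ← two_mul, zpow_mul, zpow_two, hc, one_zpow])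
      · exact Or.inr (by rw [hn, zpow_add_one, zpow_mul, zpow_two, hc, one_zpow, one_mul])
    rcases hpow with hp | hp <;> rw [hp] at hg
    · rw [hg, one_mul]
      exact he'
    · rw [hg, f.2, f'.2]
      exact he'
  have := Nat.card_le_card_of_injective _ hinj
  rwa [Nat.card_fun, hQ, Nat.card_zmod] at this

set_option maxHeartbeats 1000000 in
/-- `W` is the only subgroup of its order with a central subgroup of order eight containing all commutators and
squares. -/
theorem unique_W (h : Hyp W) (W₁ P : Subgroup T) (hP : P ≤ W₁) (hcW : Nat.card W₁ = 2 ^ 11)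
    (hcP : Nat.card P = 8) (hcen : ∀ x ∈ W₁, ∀ p ∈ P, x * p = p * x)
    (hcomm : ∀ x ∈ W₁, ∀ y ∈ W₁, ⁅x, y⁆ ∈ P) : W₁ = W := by
  classical
  haveI : Fact (Nat.Prime 2) := ⟨Nat.prime_two⟩
  haveI hWn : W.Normal := h.wnormal
  haveI : Fintype (T ⧸ W) := Fintype.ofFinite _
  obtain ⟨⟨th⟩, -⟩ := h.core
  have hzl := h.facts.zle
  have hG8 : Nat.card (T ⧸ W) = 8 := by rw [← Subgroup.index_eq_card, h.facts.idx]
  by_contra hne
  set D := W ⊓ W₁ with hD
  set I := W₁.map (QuotientGroup.mk' W) with hI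
  have hDI : Nat.card D * Nat.card I = 2 ^ 11 := by
    let f : W₁ →* T ⧸ W := (QuotientGroup.mk' W).comp W₁.subtype
    have h1 := f.ker.card_mul_index
    rw [Subgroup.index_ker] at h1
    have h2 : f.range = I := by rw [hI, MonoidHom.range_comp, Subgroup.range_subtype]
    have h3 : Nat.card f.ker = Nat.card D := by
      have e : f.ker.map W₁.subtype = D := by
        ext x
        constructor
        · rintro ⟨y, hy, rfl⟩
          exact mem_inf.2 ⟨(QuotientGroup.eq_one_iff _).1 hy, y.2⟩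
        · rintro hx
          obtain ⟨hx1, hx2⟩ := mem_inf.1 hx
          exact ⟨⟨x, hx2⟩, (QuotientGroup.eq_one_iff x).2 hx1, rfl⟩
      rw [← e, Subgroup.card_map_of_injective W₁.subtype_injective]
    rw [h2, h3, hcW] at h1
    exact h1
  -- linearisation on `D`
  let ev : W →* Multiplicative (T ⧸ W → ZMod 2) :=
    { toFun := fun x => Multiplicative.ofAdd (th.θ x)
      map_one' := congrArg Multiplicative.ofAdd th.map_one'
      map_mul' := fun x y => congrArg Multiplicative.ofAdd (th.mul' _ x.2 _ y.2) }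
  have hsplit : ∀ A : Subgroup T, A ≤ W → ∀ S : Set (T ⧸ W → ZMod 2), (∀ x ∈ A, th.θ x ∈ S) →
      Nat.card A ≤ Nat.card S * Nat.card (A ⊓ Zc T 3 : Subgroup T) := by
    intro A hA S hS
    let f : A →* Multiplicative (T ⧸ W → ZMod 2) := ev.comp (Subgroup.inclusion hA)
    have h1 := f.ker.card_mul_index
    rw [Subgroup.index_ker] at h1
    have h2 : Nat.card f.ker = Nat.card (A ⊓ Zc T 3 : Subgroup T) := by
      have e : f.ker.map A.subtype = A ⊓ Zc T 3 := by
        ext x
        constructor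
        · rintro ⟨y, hy, rfl⟩
          exact mem_inf.2 ⟨y.2, (th.ker' _ (hA y.2)).1 (Multiplicative.ofAdd.injective hy)⟩
        · rintro hx
          obtain ⟨hx1, hx2⟩ := mem_inf.1 hx
          exact ⟨⟨x, hx1⟩, congrArg Multiplicative.ofAdd ((th.ker' _ (hA hx1)).2 hx2), rfl⟩
      rw [← e, Subgroup.card_map_of_injective A.subtype_injective]
    have h3 : Nat.card f.range ≤ Nat.card S := by
      refine Nat.card_le_card_of_injective (fun y => (⟨Multiplicative.toAdd y.1, ?_⟩ : S)) ?_
      · obtain ⟨a, ha⟩ := y.2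
        rw [← ha]
        exact hS a a.2
      · intro y y' hy
        simpa using hy
    rw [h2] at h1
    rw [← h1, mul_comm]
    exact Nat.mul_le_mul h3 le_rfl
  have hz3 : Nat.card (Zc T 3) = 8 := h.cardZ (by omega)
  have hinfle : ∀ A : Subgroup T, Nat.card (A ⊓ Zc T 3 : Subgroup T) ≤ 8 := fun A =>
    hz3 ▸ Subgroup.card_le_of_le inf_le_right
  have hconj : ∀ (t : T), ∀ x ∈ W, t * x * t⁻¹ ∈ W := fun t x hx => hWn.conj_mem x hx t
  -- commutators with `D`
  have hcD : ∀ t ∈ W₁, ∀ x ∈ D, ⁅t, x⁆ ∈ P ⊓ W ∧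
      th.θ ⁅t, x⁆ = fun g => th.θ x ((QuotientGroup.mk t : T ⧸ W)⁻¹ * g) + th.θ x g := by
    intro t ht x hx
    obtain ⟨hxW, hx1⟩ := mem_inf.1 hx
    refine ⟨mem_inf.2 ⟨hcomm t ht x hx1, mul_mem (hconj t x hxW) (inv_mem hxW)⟩, ?_⟩
    funext g
    rw [commutatorElement_def, th.mul' _ (hconj t x hxW) _ (inv_mem hxW), Pi.add_apply, th.equiv' t x hxW]
    congr 1
    have h0 := congrFun (th.mul' _ (inv_mem hxW) _ hxW) g
    rw [inv_mul_cancel, th.map_one'] at h0
    exact eq_of_add_two _ _ h0.symm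
  -- images of `P` are invariant under `I`
  have hPinv : ∀ t ∈ W₁, ∀ p ∈ P ⊓ W, ∀ g, th.θ p ((QuotientGroup.mk t : T ⧸ W)⁻¹ * g) = th.θ p g := by
    intro t ht p hp g
    obtain ⟨hpP, hpW⟩ := mem_inf.1 hp
    rw [← th.equiv' t p hpW g, hcen t ht p hpP, mul_inv_cancel_right]
  have hImem : ∀ i ∈ I, ∃ t ∈ W₁, (QuotientGroup.mk t : T ⧸ W)⁻¹ = i := by
    intro i hi
    obtain ⟨t, ht, rfl⟩ := hi
    exact ⟨t⁻¹, inv_mem ht, by rw [QuotientGroup.mk_inv, inv_inv]; rfl⟩
  have hdd : ∀ i ∈ I, ∀ j ∈ I, ∀ x ∈ D, ∀ g,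
      th.θ x (j * (i * g)) + th.θ x (i * g) = th.θ x (j * g) + th.θ x g := by
    intro i hi j hj x hx g
    obtain ⟨t, ht, rfl⟩ := hImem i hi
    obtain ⟨u, hu, rfl⟩ := hImem j hj
    obtain ⟨hm, he⟩ := hcD u hu x hx
    have := hPinv t ht _ hm g
    rw [he] at this
    exact this
  -- an element of `I` with nontrivial square
  have hsqcase : ∀ i ∈ I, i * i ≠ 1 → False := by
    intro i hi hii
    set c := i * i with hc
    have hc2 : c * c = 1 := by
      obtain ⟨t, ht, rfl⟩ := hi
      have h4 : t * t * (t * t) ∈ W := by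
        obtain ⟨e₂, h₂, h₂'⟩ := h.exists_step (k := 1) (by omega)
        obtain ⟨e₃, h₃, h₃'⟩ := h.exists_step (k := 2) (by omega)
        have h12 : Zc T 1 ≤ Zc T 3 := Subgroup.upperCentralSeries_mono T (by omega)
        have f₂ : ⁅t * t, e₂⁆ = 1 := by
          rw [comm_mul_left, Hyp.central (comm_mem_succ h₂ t) t]
          exact h.facts.elem _ (h12 (comm_mem_succ h₂ t))
        refine h.mem_W h₂ h₂' h₃ h₃' (by rw [comm_mul_left, f₂]; simp) ?_
        have hq := comm_mem_succ h₃ (t * t)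
        have hfix : (t * t) * ⁅t * t, e₃⁆ * (t * t)⁻¹ = ⁅t * t, e₃⁆ := by
          by_cases hq1 : ⁅t * t, e₃⁆ ∈ Zc T 1
          · exact Hyp.central hq1 _
          · have hs := Hyp.central (h.step_rep (k := 1) (by omega) h₂ h₂' hq hq1) (t * t)
            calc (t * t) * ⁅t * t, e₃⁆ * (t * t)⁻¹ = ((t * t) * e₂ * (t * t)⁻¹) *
                  ((t * t) * (e₂⁻¹ * ⁅t * t, e₃⁆) * (t * t)⁻¹) := by group
              _ = ⁅t * t, e₃⁆ := by rw [fix_iff.1 f₂, hs, mul_inv_cancel_left]
        rw [comm_mul_left, hfix]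
        exact h.facts.elem _ (Subgroup.upperCentralSeries_mono T (by omega) hq)
      rw [hc, QuotientGroup.mk'_apply, ← QuotientGroup.mk_mul, ← QuotientGroup.mk_mul]
      exact (QuotientGroup.eq_one_iff _).2 h4
    have hS : ∀ x ∈ D, th.θ x ∈ {f : T ⧸ W → ZMod 2 | ∀ g, f (c * g) = f g} := by
      intro x hx g
      have h1 := hdd i hi i hi x hx g
      rw [← mul_assoc, ← hc] at h1
      exact zmod_sq_case _ _ _ h1
    have h1 := hsplit D inf_le_left _ hS
    have h2 := card_invariant hG8 hii hc2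
    have h3 := hinfle D
    have h4 : Nat.card D ≤ 16 * 8 := h1.trans (Nat.mul_le_mul h2 h3)
    have h5 : Nat.card I ≤ 8 := hG8 ▸ Subgroup.card_le_card_group I
    have h6 : Nat.card D * Nat.card I ≤ 16 * 8 * 8 := Nat.mul_le_mul h4 h5
    omega
  have hsq1 : ∀ i ∈ I, i * i = 1 := fun i hi => by_contra fun hh => hsqcase i hi hh
  have hIne : I ≠ ⊥ := fun hb => hne (Subgroup.eq_of_le_of_card_ge (fun x hx => by
    have hm : QuotientGroup.mk' W x ∈ I := mem_map_of_mem _ hx
    rw [hb, mem_bot] at hm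
    exact (QuotientGroup.eq_one_iff x).1 hm) (by rw [hcW, h.facts.cardW]))
  have habI : ∀ i ∈ I, ∀ j ∈ I, i * j = j * i := fun i hi j hj => by
    have h1 := inv_eq_of_mul_eq_one_right (hsq1 _ (mul_mem hi hj))
    rw [mul_inv_rev, inv_eq_of_mul_eq_one_right (hsq1 i hi), inv_eq_of_mul_eq_one_right (hsq1 j hj)] at h1
    exact h1.symm
  obtain ⟨i, hi, hi1⟩ := (Subgroup.bot_or_exists_ne_one I).resolve_left hIne
  -- the invariant images
  let F : Set (T ⧸ W → ZMod 2) := th.θ '' ((P ⊓ W : Subgroup T) : Set T)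
  have hFcard : Nat.card F * Nat.card (P ⊓ Zc T 3 : Subgroup T) ≤ 8 := by
    let f : (P ⊓ W : Subgroup T) →* Multiplicative (T ⧸ W → ZMod 2) := ev.comp (Subgroup.inclusion inf_le_right)
    have h1 := f.ker.card_mul_index
    rw [Subgroup.index_ker] at h1
    have h2 : Nat.card f.ker = Nat.card (P ⊓ Zc T 3 : Subgroup T) := by
      have e : f.ker.map (P ⊓ W : Subgroup T).subtype = P ⊓ Zc T 3 := by
        ext x
        constructor
        · rintro ⟨y, hy, rfl⟩
          exact mem_inf.2 ⟨(mem_inf.1 y.2).1, (th.ker' _ (mem_inf.1 y.2).2).1 (Multiplicative.ofAdd.injective hy)⟩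
        · rintro hx
          obtain ⟨hx1, hx2⟩ := mem_inf.1 hx
          exact ⟨⟨x, mem_inf.2 ⟨hx1, hzl hx2⟩⟩, congrArg Multiplicative.ofAdd ((th.ker' _ (hzl hx2)).2 hx2), rfl⟩
      rw [← e, Subgroup.card_map_of_injective (P ⊓ W : Subgroup T).subtype_injective]
    have h3 : Nat.card F ≤ Nat.card f.range := by
      refine Nat.card_le_card_of_injective (fun y => (⟨Multiplicative.ofAdd y.1, ?_⟩ : f.range)) ?_
      · obtain ⟨a, ha, hae⟩ := y.2
        exact ⟨⟨a, ha⟩, congrArg Multiplicative.ofAdd hae⟩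
      · intro y y' hy
        simpa [Subtype.ext_iff] using hy
    have h4 : Nat.card (P ⊓ W : Subgroup T) ≤ 8 := hcP ▸ Subgroup.card_le_of_le inf_le_left
    rw [h2] at h1
    calc Nat.card F * Nat.card (P ⊓ Zc T 3 : Subgroup T)
        ≤ Nat.card f.range * Nat.card (P ⊓ Zc T 3 : Subgroup T) := Nat.mul_le_mul h3 le_rfl
      _ ≤ 8 := by rw [mul_comm, h1]; exact h4
  have hIle : Nat.card I ≤ 4 := by
    by_contra hgt
    have h8 : Nat.card I = 8 := by
      have hd : Nat.card I ∣ 8 := hG8 ▸ Subgroup.card_subgroup_dvd_card I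
      have := Nat.le_of_dvd (by norm_num) hd
      have hcase : Nat.card I = 5 ∨ Nat.card I = 6 ∨ Nat.card I = 7 ∨ Nat.card I = 8 := by omega
      rcases hcase with e | e | e | e <;> rw [e] at hd <;> omega
    have htop : I = ⊤ := Subgroup.eq_top_of_card_eq _ (h8.trans hG8.symm)
    -- the quotient would be abelian
    obtain ⟨e₁, h₁, h₁'⟩ := h.exists_step (k := 0) (by omega)
    obtain ⟨e₂, h₂, h₂'⟩ := h.exists_step (k := 1) (by omega)
    obtain ⟨e₃, h₃, h₃'⟩ := h.exists_step (k := 2) (by omega)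
    obtain ⟨s, hs₂, hs₃⟩ := h.exists_pair h.facts.idx h₂ h₂' h₃ h₃' h₁ h₂
    have hm : QuotientGroup.mk' W s ∈ I := htop ▸ mem_top _
    have hq := hsq1 _ hm
    rw [QuotientGroup.mk'_apply, ← QuotientGroup.mk_mul, QuotientGroup.eq_one_iff] at hq
    have h0 := h.fix_of_mem hq h₃
    rw [comm_mul_left, hs₃] at h0
    have e : s * e₂ * s⁻¹ = e₁ * e₂ := by
      rw [← hs₂, commutatorElement_def, inv_mul_cancel_right]
    have he22 : e₂ * e₂ = 1 := h.facts.elem _ (Subgroup.upperCentralSeries_mono T (by omega) h₂)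
    rw [e, mul_assoc, he22, mul_one] at h0
    exact h₁' (Hyp.zero_mem.2 h0)
  rcases Nat.lt_or_ge (Nat.card I) 4 with hlt | hge4
  · -- order two
    have hD10 : 2 ^ 10 ≤ Nat.card D := by
      have hd : Nat.card I ∣ 8 := hG8 ▸ Subgroup.card_subgroup_dvd_card I
      have hcase : Nat.card I = 0 ∨ Nat.card I = 1 ∨ Nat.card I = 2 ∨ Nat.card I = 3 := by omega
      rcases hcase with e | e | e | e <;> rw [e] at hd hDI <;> omega
    let S : Set (T ⧸ W → ZMod 2) := {f | (fun g => f (i * g) + f g) ∈ F}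
    have hS : ∀ x ∈ D, th.θ x ∈ S := by
      intro x hx
      obtain ⟨t, ht, hti⟩ := hImem i hi
      obtain ⟨hm, he⟩ := hcD t ht x hx
      rw [hti] at he
      exact ⟨_, hm, he⟩
    have hScard : Nat.card S ≤ 16 * Nat.card F := by
      let K := {f : T ⧸ W → ZMod 2 // ∀ g, f (i * g) = f g}
      let δ : S → F := fun f => ⟨fun g => f.1 (i * g) + f.1 g, f.2⟩
      let sec : F → S := fun y => if hy : ∃ f, δ f = y then hy.choose else ⟨0, by
        change (fun g => (0 : T ⧸ W → ZMod 2) (i * g) + (0 : T ⧸ W → ZMod 2) g) ∈ F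
        exact ⟨1, one_mem _, by rw [th.map_one']; funext g; simp⟩⟩
      have hsec : ∀ f, δ (sec (δ f)) = δ f := fun f => by
        have hy : ∃ f', δ f' = δ f := ⟨f, rfl⟩
        simp only [sec, dif_pos hy]
        exact hy.choose_spec
      have hinj : Function.Injective fun f : S => ((⟨fun g => f.1 g + (sec (δ f)).1 g, fun g => by
          have := congrFun (congrArg Subtype.val (hsec f)) g
          simp only [δ] at this
          exact zmod_sec _ _ _ _ this⟩ : K), δ f) := by
        intro f f' he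
        simp only [Prod.mk.injEq, Subtype.mk.injEq] at he
        refine Subtype.ext (funext fun g => ?_)
        have h1 := congrFun he.1 g
        rw [he.2] at h1
        exact add_right_cancel h1
      have h1 := Nat.card_le_card_of_injective _ hinj
      rw [Nat.card_prod] at h1
      exact h1.trans (Nat.mul_le_mul (card_invariant hG8 hi1 (hsq1 i hi)) le_rfl)
    have h1 := hsplit D inf_le_left S hS
    have h2 : 2 ^ 10 ≤ 16 * Nat.card F * Nat.card (D ⊓ Zc T 3 : Subgroup T) :=
      hD10.trans (h1.trans (Nat.mul_le_mul hScard le_rfl))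
    have h3 := hinfle D
    have hF8 : Nat.card F = 8 ∧ Nat.card (D ⊓ Zc T 3 : Subgroup T) = 8 := by
      have hFp : Nat.card F ≤ 8 :=
        le_trans (Nat.le_mul_of_pos_right _ Nat.card_pos) hFcard
      have h4 : 64 ≤ Nat.card F * Nat.card (D ⊓ Zc T 3 : Subgroup T) := by
        rw [mul_assoc] at h2
        omega
      constructor
      · by_contra hh
        have := Nat.mul_le_mul (show Nat.card F ≤ 7 by omega) h3
        omega
      · by_contra hh
        have := Nat.mul_le_mul hFp (show Nat.card (D ⊓ Zc T 3 : Subgroup T) ≤ 7 by omega)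
        omega
    have hPZ : Nat.card (P ⊓ Zc T 3 : Subgroup T) = 1 := by
      rw [hF8.1] at hFcard
      have := Nat.card_pos (α := (P ⊓ Zc T 3 : Subgroup T))
      omega
    have hZW₁ : Zc T 3 ≤ W₁ := by
      have := Subgroup.eq_of_le_of_card_ge (inf_le_right : D ⊓ Zc T 3 ≤ Zc T 3) (by rw [hF8.2, hz3])
      exact (inf_eq_right.1 this).trans inf_le_right
    apply hne
    refine Subgroup.eq_of_le_of_card_ge (fun t ht => ?_) (by rw [hcW, h.facts.cardW])
    rw [h.cent, mem_centralizer_iff]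
    intro x hx
    have hm : ⁅t, x⁆ ∈ P ⊓ Zc T 3 := mem_inf.2 ⟨hcomm t ht x (hZW₁ hx),
      Subgroup.upperCentralSeries_mono T (show 2 ≤ 3 by omega) (comm_mem_succ hx t)⟩
    rw [Subgroup.card_eq_one.1 hPZ, mem_bot] at hm
    exact (commutatorElement_eq_one_iff_mul_comm.1 hm).symm
  -- order four
  have hI4 : Nat.card I = 4 := le_antisymm hIle hge4
  have hD9 : Nat.card D = 2 ^ 9 := by rw [hI4] at hDI; omega
  obtain ⟨j, hj, hj1, hji⟩ : ∃ j ∈ I, j ≠ 1 ∧ j ≠ i := by
    by_contra hall
    push Not at hall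
    have hsub : (I : Set (T ⧸ W)) ⊆ {1, i} := fun x hx => by
      by_cases hx1 : x = 1
      · exact Or.inl hx1
      · exact Or.inr (hall x hx hx1)
    have := Nat.card_mono (Set.toFinite _) hsub
    rw [Nat.card_coe_set_eq, Nat.card_coe_set_eq] at this
    have h2 := (Set.ncard_insert_le (1 : T ⧸ W) {i}).trans (by rw [Set.ncard_singleton])
    rw [show (I : Set (T ⧸ W)).ncard = Nat.card I from (Nat.card_coe_set_eq _).symm, hI4] at this
    omega
  have hij1 : i * j ≠ 1 := fun he => hji (by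
    have := eq_inv_of_mul_eq_one_right he
    rw [this, inv_eq_of_mul_eq_one_right (hsq1 i hi)])
  -- the norm over `I`
  let N : (T ⧸ W → ZMod 2) →+ (T ⧸ W → ZMod 2) :=
    { toFun := fun f g => f g + f (i * g) + f (j * g) + f (i * j * g)
      map_zero' := by funext g; simp
      map_add' := fun f f' => by funext g; simp only [Pi.add_apply]; abel }
  have hker : ∀ x ∈ D, N (th.θ x) = 0 := by
    intro x hx
    funext g
    have h1 := hdd i hi j hj x hx g
    rw [← mul_assoc, ← habI i hi j hj] at h1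
    change th.θ x g + th.θ x (i * g) + th.θ x (j * g) + th.θ x (i * j * g) = 0
    exact zmod_norm _ _ _ _ h1
  -- the norm of a point mass is the indicator of its coset
  have hNpoint : ∀ g, N (Pi.single g 1) = fun k => if k * g⁻¹ ∈ I then 1 else 0 := by
    intro g
    funext k
    change (Pi.single g 1 : T ⧸ W → ZMod 2) k + (Pi.single g 1 : T ⧸ W → ZMod 2) (i * k) +
      (Pi.single g 1 : T ⧸ W → ZMod 2) (j * k) + (Pi.single g 1 : T ⧸ W → ZMod 2) (i * j * k) = _
    have hIset : ∀ a : T ⧸ W, a ∈ I ↔ a = 1 ∨ a = i ∨ a = j ∨ a = i * j := by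
      have hset : ({1, i, j, i * j} : Set (T ⧸ W)) = (I : Set (T ⧸ W)) := by
        apply Set.eq_of_subset_of_ncard_le ?_ ?_ (Set.toFinite _)
        · rintro a (rfl | rfl | rfl | rfl)
          exacts [one_mem I, hi, hj, mul_mem hi hj]
        · rw [show (I : Set (T ⧸ W)).ncard = Nat.card I from (Nat.card_coe_set_eq _).symm, hI4]
          rw [Set.ncard_insert_of_notMem, Set.ncard_insert_of_notMem, Set.ncard_pair]
          · exact fun he => hi1 (by simpa using he.symm)
          · simp only [Set.mem_insert_iff, Set.mem_singleton_iff, not_or]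
            exact ⟨hji.symm, fun he => hj1 (by simpa using he.symm)⟩
          · simp only [Set.mem_insert_iff, Set.mem_singleton_iff, not_or]
            exact ⟨fun he => hi1 he.symm, fun he => hj1 he.symm, fun he => hij1 he.symm⟩
      intro a
      rw [← SetLike.mem_coe, ← hset]
      simp
    simp only [Pi.single_apply]
    have e : ∀ a : T ⧸ W, a ∈ I → (a * k = g ↔ k * g⁻¹ = a) := fun a ha => by
      have hai := inv_eq_of_mul_eq_one_right (hsq1 a ha)
      constructor
      · rintro rfl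
        rw [mul_inv_rev, mul_inv_cancel_left, hai]
      · intro he
        rw [← he] at hai ⊢
        rw [← hai]
        group
    have e1 := e 1 (one_mem I)
    rw [one_mul] at e1
    simp only [e1, e i hi, e j hj, e (i * j) (mul_mem hi hj)]
    have n1 : j ≠ i * j := fun he => hi1 (by simpa using he.symm)
    have n2 : i ≠ i * j := fun he => hj1 (by simpa using he.symm)
    by_cases hk : k * g⁻¹ ∈ I
    · rw [if_pos hk]
      rcases (hIset _).1 hk with a | a | a | a <;> rw [a]
      · rw [if_pos rfl, if_neg hi1.symm, if_neg hj1.symm, if_neg hij1.symm]; simp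
      · rw [if_neg hi1, if_pos rfl, if_neg hji.symm, if_neg n2]; simp
      · rw [if_neg hj1, if_neg hji, if_pos rfl, if_neg n1]; simp
      · rw [if_neg hij1, if_neg n2.symm, if_neg n1.symm, if_pos rfl]; simp
    · rw [if_neg hk, if_neg (fun a => hk (by rw [a]; exact one_mem I)), if_neg (fun a => hk (by rw [a]; exact hi)),
        if_neg (fun a => hk (by rw [a]; exact hj)), if_neg (fun a => hk (by rw [a]; exact mul_mem hi hj))]
      simp
  let Nh := N.ker
  have hNker : Nat.card Nh ≤ 64 := by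
    obtain ⟨g₁, hg₁⟩ : ∃ g : T ⧸ W, g ∉ I := by
      by_contra hall
      push Not at hall
      have : I = ⊤ := eq_top_iff.2 fun g _ => hall g
      rw [this, Subgroup.card_top, hG8] at hI4
      omega
    have hr : 4 ≤ Nat.card N.range := by
      let a := N (Pi.single 1 1)
      let b := N (Pi.single g₁ 1)
      have hsub : ({0, a, b, a + b} : Set (T ⧸ W → ZMod 2)) ⊆ (N.range : Set (T ⧸ W → ZMod 2)) := by
        rintro f (rfl | rfl | rfl | rfl)
        exacts [zero_mem _, ⟨_, rfl⟩, ⟨_, rfl⟩, ⟨_, map_add N _ _⟩]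
      have ha1 : a 1 = 1 := by simp only [a, hNpoint]; simp [one_mem I]
      have hag : a g₁ = 0 := by simp only [a, hNpoint]; simp [hg₁]
      have hb1 : b 1 = 0 := by simp only [b, hNpoint]; simp [hg₁]
      have hbg : b g₁ = 1 := by simp only [b, hNpoint]; simp [one_mem I]
      have hc := Nat.card_mono (Set.toFinite _) hsub
      rw [Nat.card_coe_set_eq, Nat.card_coe_set_eq] at hc
      have h4 : ({0, a, b, a + b} : Set (T ⧸ W → ZMod 2)).ncard = 4 := by
        rw [Set.ncard_insert_of_notMem, Set.ncard_insert_of_notMem, Set.ncard_pair]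
        · intro he
          have := congrFun he 1
          simp [ha1, hb1] at this
        · simp only [Set.mem_insert_iff, Set.mem_singleton_iff, not_or]
          refine ⟨fun he => ?_, fun he => ?_⟩
          · have := congrFun he 1
            simp [ha1, hb1] at this
          · have := congrFun he g₁
            simp [hag, hbg] at this
        · simp only [Set.mem_insert_iff, Set.mem_singleton_iff, not_or]
          refine ⟨fun he => ?_, fun he => ?_, fun he => ?_⟩
          · have := congrFun he 1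
            simp [ha1] at this
          · have := congrFun he g₁
            simp [hbg] at this
          · have := congrFun he 1
            simp [ha1, hb1] at this
      exact h4.symm.le.trans (hc.trans_eq (Nat.card_coe_set_eq _).symm)
    have h1 := N.ker.card_mul_index
    rw [AddSubgroup.index_ker, Nat.card_fun, hG8, Nat.card_zmod] at h1
    have h2 : Nat.card Nh * 4 ≤ Nat.card N.ker * Nat.card N.range := Nat.mul_le_mul le_rfl hr
    omega
  let S : Set (T ⧸ W → ZMod 2) := {f | N f = 0}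
  have hScard : Nat.card S ≤ 64 := hNker
  have h1 := hsplit D inf_le_left S hker
  have hDz : Nat.card (D ⊓ Zc T 3 : Subgroup T) = 8 := by
    have h3 := hinfle D
    by_contra hh
    have := h1.trans (Nat.mul_le_mul hScard (show Nat.card (D ⊓ Zc T 3 : Subgroup T) ≤ 7 by omega))
    omega
  have hZD : Zc T 3 ≤ D :=
    inf_eq_right.1 (Subgroup.eq_of_le_of_card_ge (inf_le_right : D ⊓ Zc T 3 ≤ Zc T 3) (by rw [hDz, hz3]))
  -- every function of norm zero occurs on `D`
  have hfull : ∀ f ∈ S, ∃ x ∈ D, th.θ x = f := by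
    intro f hf
    by_contra hno
    push Not at hno
    have h5 := hsplit D inf_le_left (S \ {f}) fun x hx => ⟨hker x hx, hno x hx⟩
    have h6 : Nat.card ↑(S \ {f}) ≤ 63 := by
      rw [Nat.card_coe_set_eq, Set.ncard_sdiff_singleton_of_mem hf]
      rw [Nat.card_coe_set_eq] at hScard
      omega
    have := h5.trans (Nat.mul_le_mul h6 (hinfle D))
    omega
  -- coset indicators lie in the images of `P`
  have hFind : ∀ g : T ⧸ W, N (Pi.single g 1) ∈ F := by
    intro g
    have hf : N (fun k => (Pi.single g 1 : T ⧸ W → ZMod 2) k + (Pi.single g 1 : T ⧸ W → ZMod 2) (j * k)) = 0 := by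
      funext k
      change _ + _ + _ + _ = (0 : ZMod 2)
      simp only []
      rw [show j * (i * k) = i * j * k by rw [← mul_assoc, habI i hi j hj],
        show j * (j * k) = k by rw [← mul_assoc, hsq1 j hj, one_mul],
        show j * (i * j * k) = i * k by rw [← mul_assoc, ← mul_assoc, ← habI i hi j hj, mul_assoc i j j, hsq1 j hj, mul_one]]
      exact zmod_norm_point _ _ _ _
    obtain ⟨x, hx, hxe⟩ := hfull _ hf
    obtain ⟨t, ht, hti⟩ := hImem i hi
    obtain ⟨hm, he⟩ := hcD t ht x hx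
    refine ⟨_, hm, he.trans ?_⟩
    rw [hti, hxe]
    funext k
    change (Pi.single g 1 : T ⧸ W → ZMod 2) (i * k) + (Pi.single g 1 : T ⧸ W → ZMod 2) (j * (i * k)) +
      ((Pi.single g 1 : T ⧸ W → ZMod 2) k + (Pi.single g 1 : T ⧸ W → ZMod 2) (j * k)) = _ + _ + _ + _
    rw [show j * (i * k) = i * j * k by rw [← mul_assoc, habI i hi j hj]]
    abel
  obtain ⟨g₁, hg₁⟩ : ∃ g : T ⧸ W, g ∉ I := by
    by_contra hall
    push Not at hall
    have : I = ⊤ := eq_top_iff.2 fun g _ => hall g
    rw [this, Subgroup.card_top, hG8] at hI4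
    omega
  obtain ⟨pa, hpa, hpae⟩ := hFind 1
  obtain ⟨pb, hpb, hpbe⟩ := hFind g₁
  set z := pa * pb with hz
  have hzm : z ∈ P ⊓ W := mul_mem hpa hpb
  have hzP : z ∈ P := (mem_inf.1 hzm).1
  have hzW : z ∈ W := (mem_inf.1 hzm).2
  have hcos : ∀ k, k ∈ I ↔ k * g₁⁻¹ ∉ I := by
    intro k
    have hIi : I.index = 2 := by
      have := I.card_mul_index
      rw [hI4, hG8] at this
      omega
    have hh := Subgroup.mul_mem_iff_of_index_two hIi (a := k) (b := g₁⁻¹)
    rw [hh]
    simp [hg₁]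
  have hzθ : th.θ z = 1 := by
    rw [hz, th.mul' _ (mem_inf.1 hpa).2 _ (mem_inf.1 hpb).2, hpae, hpbe, hNpoint, hNpoint]
    funext k
    rw [Pi.add_apply, Pi.one_apply]
    have := hcos k
    change (if k * (1 : T ⧸ W)⁻¹ ∈ I then (1 : ZMod 2) else 0) + (if k * g₁⁻¹ ∈ I then 1 else 0) = 1
    rw [inv_one, mul_one]
    by_cases hk : k ∈ I
    · rw [if_pos hk, if_neg (this.1 hk), add_zero]
    · rw [if_neg hk, if_pos (not_not.1 fun hh => hk (this.2 hh)), zero_add]
  -- `P` meets the third term in at most two elements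
  have hQ : Nat.card (P ⊓ Zc T 3 : Subgroup T) ≤ 2 := by
    have h4 : 4 ≤ Nat.card F := by
      have hsub : ({0, N (Pi.single 1 1), N (Pi.single g₁ 1), 1} : Set (T ⧸ W → ZMod 2)) ⊆ F := by
        rintro f (rfl | rfl | rfl | rfl)
        exacts [⟨1, one_mem _, th.map_one'⟩, hFind 1, hFind g₁, ⟨z, hzm, hzθ⟩]
      have hc := Nat.card_mono (Set.toFinite _) hsub
      rw [Nat.card_coe_set_eq] at hc
      have hn : ({0, N (Pi.single 1 1), N (Pi.single g₁ 1), 1} : Set (T ⧸ W → ZMod 2)).ncard = 4 := by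
        have ha1 : N (Pi.single 1 1) 1 = 1 := by rw [hNpoint]; simp [one_mem I]
        have hag : N (Pi.single 1 1) g₁ = 0 := by rw [hNpoint]; simp [hg₁]
        have hb1 : N (Pi.single g₁ 1) 1 = 0 := by rw [hNpoint]; simp [hg₁]
        have hbg : N (Pi.single g₁ 1) g₁ = 1 := by rw [hNpoint]; simp [one_mem I]
        rw [Set.ncard_insert_of_notMem, Set.ncard_insert_of_notMem, Set.ncard_pair]
        · intro he
          have := congrFun he 1
          simp [hb1] at this
        · simp only [Set.mem_insert_iff, Set.mem_singleton_iff, not_or]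
          refine ⟨fun he => ?_, fun he => ?_⟩
          · have := congrFun he 1
            simp [ha1, hb1] at this
          · have := congrFun he g₁
            simp [hag] at this
        · simp only [Set.mem_insert_iff, Set.mem_singleton_iff, not_or]
          refine ⟨fun he => ?_, fun he => ?_, fun he => ?_⟩
          · have := congrFun he 1
            simp [ha1] at this
          · have := congrFun he g₁
            simp [hbg] at this
          · have := congrFun he 1
            simp at this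
      rw [hn] at hc
      exact hc
    have := (Nat.mul_le_mul h4 (le_refl (Nat.card (P ⊓ Zc T 3 : Subgroup T)))).trans hFcard
    omega
  -- where `I` acts on the third term
  obtain ⟨e₁, h₁, h₁'⟩ := h.exists_step (k := 0) (by omega)
  obtain ⟨e₂, h₂, h₂'⟩ := h.exists_step (k := 1) (by omega)
  obtain ⟨e₃, h₃, h₃'⟩ := h.exists_step (k := 2) (by omega)
  have h12 : Zc T 1 ≤ Zc T 2 := Subgroup.upperCentralSeries_mono T (by omega)
  have h23 : Zc T 2 ≤ Zc T 3 := Subgroup.upperCentralSeries_mono T (by omega)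
  have hQmem : ∀ t ∈ W₁, ⁅t, e₂⁆ ∈ P ⊓ Zc T 3 ∧ ⁅t, e₃⁆ ∈ P ⊓ Zc T 3 := fun t ht =>
    ⟨mem_inf.2 ⟨hcomm t ht e₂ (mem_inf.1 (hZD (h23 h₂))).2, h23 (h12 (comm_mem_succ h₂ t))⟩,
      mem_inf.2 ⟨hcomm t ht e₃ (mem_inf.1 (hZD h₃)).2, h23 (comm_mem_succ h₃ t)⟩⟩
  have pairInj : ∀ t ∈ W₁, ∀ u ∈ W₁, ⁅t, e₂⁆ = ⁅u, e₂⁆ → ⁅t, e₃⁆ = ⁅u, e₃⁆ →
      (QuotientGroup.mk t : T ⧸ W) = QuotientGroup.mk u :=
    fun t _ u _ f₂ f₃ => QuotientGroup.eq.2 (h.pair_injective h₂ h₂' h₃ h₃' f₂ f₃)
  -- all pairs in `(P ∩ Zc 1) × (P ∩ Zc 1)` occur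
  have hpairs : ∃ ta ∈ W₁, ∃ tc ∈ W₁, ⁅ta, e₂⁆ ≠ 1 ∧ ⁅tc, e₂⁆ = 1 ∧ ⁅tc, e₃⁆ ≠ 1 := by
    let pr : I → (P ⊓ Zc T 3 : Subgroup T) × (P ⊓ Zc T 3 : Subgroup T) := fun a =>
      (⟨⁅(Subgroup.mem_map.1 a.2).choose, e₂⁆, (hQmem _ (Subgroup.mem_map.1 a.2).choose_spec.1).1⟩,
        ⟨⁅(Subgroup.mem_map.1 a.2).choose, e₃⁆, (hQmem _ (Subgroup.mem_map.1 a.2).choose_spec.1).2⟩)
    have hinj : Function.Injective pr := by
      intro a b hab
      simp only [pr, Prod.mk.injEq, Subtype.mk.injEq] at hab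
      have := pairInj _ (Subgroup.mem_map.1 a.2).choose_spec.1 _ (Subgroup.mem_map.1 b.2).choose_spec.1
        hab.1 hab.2
      exact Subtype.ext ((Subgroup.mem_map.1 a.2).choose_spec.2.symm.trans
        (this.trans (Subgroup.mem_map.1 b.2).choose_spec.2))
    have hb : Function.Bijective pr := hinj.bijective_of_nat_card_le (by
      rw [Nat.card_prod, hI4]
      exact Nat.mul_le_mul hQ hQ)
    have hQ1 : (P ⊓ Zc T 3 : Subgroup T) ≠ ⊥ := fun hbot => by
      have := Nat.card_le_card_of_injective pr hinj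
      rw [Nat.card_prod, hbot, Subgroup.card_bot, hI4] at this
      omega
    obtain ⟨q, hq, hq1⟩ := (Subgroup.bot_or_exists_ne_one _).resolve_left hQ1
    obtain ⟨a, ha⟩ := hb.2 (⟨q, hq⟩, 1)
    obtain ⟨c, hc⟩ := hb.2 (1, ⟨q, hq⟩)
    simp only [pr, Prod.ext_iff, Subtype.ext_iff, Subgroup.coe_one] at ha hc
    exact ⟨_, (Subgroup.mem_map.1 a.2).choose_spec.1, _, (Subgroup.mem_map.1 c.2).choose_spec.1,
      by rw [ha.1]; exact hq1, hc.1, by rw [hc.2]; exact hq1⟩
  obtain ⟨ta, hta, tc, htc, ha₂, hc₂, hc₃⟩ := hpairs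
  -- commutators of `z` with the point masses
  set f₀ := ⁅z, th.point 1⁆ with hf₀
  have hf₀3 : f₀ ∈ Zc T 3 := h.facts.comm _ hzW _ (th.point_mem 1)
  have htrans : ∀ u : T, u * f₀ * u⁻¹ = ⁅z, th.point (QuotientGroup.mk u)⁆ := by
    intro u
    have e : u * f₀ * u⁻¹ = ⁅u * z * u⁻¹, u * th.point 1 * u⁻¹⁆ := by
      rw [hf₀]
      simp only [commutatorElement_def]
      group
    rw [e]
    refine comm_point_congr h th (hconj u z hzW) hzW (hconj u _ (th.point_mem 1)) (th.point_mem _) ?_ ?_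
    · funext k
      rw [th.equiv' u z hzW, hzθ]
      rfl
    · rw [th.conj_point, mul_one]
  have hfixI : ∀ u ∈ W₁, u * f₀ * u⁻¹ = f₀ := by
    intro u hu
    rw [htrans u, hf₀]
    have hmem : (QuotientGroup.mk u : T ⧸ W) ∈ I := ⟨u, hu, rfl⟩
    have hf : N (fun k => (Pi.single 1 1 : T ⧸ W → ZMod 2) k +
        (Pi.single (QuotientGroup.mk u) 1 : T ⧸ W → ZMod 2) k) = 0 := by
      rw [show (fun k => (Pi.single 1 1 : T ⧸ W → ZMod 2) k +
        (Pi.single (QuotientGroup.mk u) 1 : T ⧸ W → ZMod 2) k) =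
          Pi.single 1 1 + Pi.single (QuotientGroup.mk u) 1 from rfl, map_add, hNpoint, hNpoint]
      funext k
      rw [Pi.add_apply, Pi.zero_apply]
      have : k * (QuotientGroup.mk u : T ⧸ W)⁻¹ ∈ I ↔ k * (1 : T ⧸ W)⁻¹ ∈ I := by
        rw [inv_one, mul_one]
        exact I.mul_mem_cancel_right (inv_mem hmem)
      simp only [this]
      exact zmod_add_self _
    obtain ⟨d, hd, hde⟩ := hfull _ hf
    obtain ⟨hdW, hd1⟩ := mem_inf.1 hd
    have hzd : ⁅z, d⁆ = 1 := commutatorElement_eq_one_iff_mul_comm.2 (hcen d hd1 z hzP).symm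
    have e1 : ⁅z, th.point (QuotientGroup.mk u)⁆ = ⁅z, th.point 1 * d⁆ :=
      comm_point_congr h th hzW hzW (th.point_mem _) (mul_mem (th.point_mem 1) hdW) rfl (by
        rw [th.mul' _ (th.point_mem 1) _ hdW, hde, th.θ_point, th.θ_point]
        funext k
        simp only [Pi.add_apply]
        exact (zmod_split _ _).symm)
    rw [e1, ← commutatorElement_inv, comm_mul h (th.point_mem 1) hdW hzW]
    rw [show ⁅d, z⁆ = 1 by rw [← commutatorElement_inv, hzd, inv_one], mul_one, commutatorElement_inv]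
  have hf₀2 : f₀ ∈ Zc T 2 := by
    by_contra hf2
    have hc3 := hfixI tc htc
    apply hc₃
    rw [fix_iff]
    have hr := h.step_rep (k := 2) (by omega) hf₀3 hf2 h₃ h₃'
    have hz2 : tc * (f₀⁻¹ * e₃) * tc⁻¹ = f₀⁻¹ * e₃ := by
      by_cases hq1 : f₀⁻¹ * e₃ ∈ Zc T 1
      · exact Hyp.central hq1 _
      · have hs := Hyp.central (h.step_rep (k := 1) (by omega) h₂ h₂' hr hq1) tc
        calc tc * (f₀⁻¹ * e₃) * tc⁻¹ = (tc * e₂ * tc⁻¹) * (tc * (e₂⁻¹ * (f₀⁻¹ * e₃)) * tc⁻¹) := by group
          _ = f₀⁻¹ * e₃ := by rw [fix_iff.1 hc₂, hs, mul_inv_cancel_left]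
    calc tc * e₃ * tc⁻¹ = (tc * f₀ * tc⁻¹) * (tc * (f₀⁻¹ * e₃) * tc⁻¹) := by group
      _ = e₃ := by rw [hc3, hz2, mul_inv_cancel_left]
  have hf₀1 : f₀ ∈ Zc T 1 := by
    by_contra hf1
    apply ha₂
    rw [fix_iff]
    have hs := Hyp.central (h.step_rep (k := 1) (by omega) hf₀2 hf1 h₂ h₂') ta
    calc ta * e₂ * ta⁻¹ = (ta * f₀ * ta⁻¹) * (ta * (f₀⁻¹ * e₂) * ta⁻¹) := by group
      _ = e₂ := by rw [hfixI ta hta, hs, mul_inv_cancel_left]
  refine no_radical h th hzW hzθ fun y hy => ?_
  rw [form_symm h hzW hy, form_expand h th hy hzW]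
  refine Finset.sum_eq_zero fun g _ => ?_
  induction g using QuotientGroup.induction_on with
  | _ u =>
    rw [form_symm h (th.point_mem _) hzW]
    unfold form
    rw [← htrans u, Hyp.central hf₀1 u, if_pos (h12 hf₀1), mul_zero]

end CfsgLib.RuType
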